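import Cfsg.Agent.H751.IF.HexS
import Cfsg.Agent.H209.IF.Kill

/-!
# S5719, `G₂` and `³D₄` in characteristic two: the abstract contradiction (helper751)
-/

set_option autoImplicit false
set_option linter.unusedSectionVars false

namespace Cfsg.Agent.H751.HexQ

open Cfsg.Agent.H255 Subgroup Cfsg.Agent.SplitTwo Cfsg.Agent.TitsThree.RankTwoZ Cfsg.Agent.Lib.SL2Mat Cfsg.Agent.Cit.HexBase
  Cfsg.Agent.H255.IFK
open scoped commutatorElement Pointwise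

variable {E : Type*} [Field E] {σ : E ≃+* E} {L : Type*} [Group L] (c : HexGrp σ L)

/-- the even roots -/
abbrev Ev : Finset (ZMod (2 * 6)) := {0, 2, 4, 6, 8, 10}

theorem x6_ne : c.x6 1 ≠ 1 := by
  intro h
  rw [← c.x6_zero] at h
  exact one_ne_zero (c.x6_inj (map_one σ) (map_zero σ) h)

theorem cj_ne {G : Type*} [Group G] {g x : G} (h : x ≠ 1) : g * x * g⁻¹ ≠ 1 := by
  intro e
  apply h
  have : x = g⁻¹ * (g * x * g⁻¹) * g := by group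
  rw [this, e]
  group

theorem cj_ne' {G : Type*} [Group G] {g x : G} (h : x ≠ 1) : g⁻¹ * x * g ≠ 1 := by
  have := cj_ne (g := g⁻¹) h
  rwa [inv_inv] at this

/-- a nontrivial element of an even root group -/
theorem exists_ne {k : ZMod (2 * 6)} (hk : k ∈ Ev) : ∃ x ∈ c.X k, x ≠ 1 := by
  obtain ⟨r, hr⟩ := evens k hk
  exact ⟨_, rt_mem c hr (c.mem6 (map_one σ)), cj_ne (x6_ne c)⟩

section num

variable [CharP E 2] [Finite E] [Finite L] {Λ : ℕ}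
  (hL : Nat.card L ≤ Nat.card ↥(fx σ) ^ 3 * Nat.card E ^ 3 * (Nat.card E ^ 2 - 1) * Λ)

include hL

theorem step1 (hΛ : Λ ≤ 16 * Nat.card ↥(fx σ) * Nat.card E ^ 5) {A : Subgroup L} (hA : IFK.Fix A) {t : L} (ht : t ∈ A)
    (ht6 : t ∈ c.X 6) (ht1 : t ≠ 1) : c.X 4 ≤ A := by
  by_contra hZA
  have h4 : t ∉ c.X 4 := by
    intro h
    exact ht1 (c.eq_one_of_mem (k := 4) (s := {6}) (by decide +kernel) h (X_le_Sg (by decide) ht6))
  have h := s1 hA (sp c) (card_X4 c) (card_Q c) ht (X_le_Sg (by decide) ht6) h4 (ord6 c ht6 ht1)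
    (fun z hz hz1 => isConj_even' c (k := 6) (j := 4) (by decide) (by decide) ht6 ht1 hz hz1) hZA
  have h2 := index_even c hL (k := 6) (by decide) ht6 ht1
  have h3 : Nat.card ↥(fx σ) ^ 4 * (centralizer ({t} : Set L)).index ≤
      16 * (Nat.card ↥(fx σ) * Nat.card E) ^ 5 := by
    calc _ ≤ Nat.card ↥(fx σ) ^ 4 * (16 * Nat.card ↥(fx σ) * Nat.card E ^ 5) := Nat.mul_le_mul_left _ (h2.trans hΛ)
      _ = _ := by ring
  exact absurd (lt_of_lt_of_le h h3) (lt_irrefl _)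

theorem step1' (hΛ : Λ ≤ 16 * Nat.card ↥(fx σ) * Nat.card E ^ 5) (r : ℕ) {A : Subgroup L} (hA : IFK.Fix A) {t : L}
    (ht : t ∈ A) (ht6 : t ∈ c.X (6 + 2 * (r : ZMod (2 * 6)))) (ht1 : t ≠ 1) :
    c.X (6 + 2 * ((r + 5 : ℕ) : ZMod (2 * 6))) ≤ A := by
  have hA' := hA.conj (rt c r)⁻¹
  have e : (6 : ZMod (2 * 6)) + 2 * ((r + 5 : ℕ) : ZMod (2 * 6)) = 4 + 2 * (r : ZMod (2 * 6)) := by
    have h10 : (2 * (5 : ZMod (2 * 6))) = -2 := by decide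
    push_cast
    rw [mul_add, h10]
    ring
  have h1 := step1 c hL hΛ hA' (t := (rt c r)⁻¹ * t * rt c r) (by
    rw [mem_conj]
    rw [show (rt c r)⁻¹⁻¹ * ((rt c r)⁻¹ * t * rt c r) * (rt c r)⁻¹ = t by group]
    exact ht) (rt_mem' c rfl ht6) (cj_ne' ht1)
  intro x hx
  rw [e] at hx
  have h2 := h1 (rt_mem' c (k := 4) rfl hx)
  rw [mem_conj] at h2
  rwa [show (rt c r)⁻¹⁻¹ * ((rt c r)⁻¹ * x * rt c r) * (rt c r)⁻¹ = x by group] at h2

theorem step2 (hΛ : Λ ≤ 16 * Nat.card ↥(fx σ) * Nat.card E ^ 5) {A : Subgroup L} (hA : IFK.Fix A) {t : L}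
    {k : ZMod (2 * 6)} (hk : k ∈ Ev) (ht : t ∈ A) (htk : t ∈ c.X k) (ht1 : t ≠ 1) : ∀ j ∈ Ev, c.X j ≤ A := by
  have hev : ∀ k : ZMod (2 * 6), k ∈ Ev → ∃ r : Fin 6, 6 + 2 * ((r.val : ℕ) : ZMod (2 * 6)) = k := by decide +kernel
  obtain ⟨r, hr⟩ := hev k hk
  have h1 : ∀ n : ℕ, c.X (6 + 2 * ((r.val + 5 * (n + 1) : ℕ) : ZMod (2 * 6))) ≤ A := by
    intro n
    induction n with
    | zero => exact step1' c hL hΛ r.val hA ht (by rw [hr]; exact htk) ht1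
    | succ n ih =>
      have hmem : (6 + 2 * ((r.val + 5 * (n + 1) : ℕ) : ZMod (2 * 6))) ∈ Ev := by
        have hall : ∀ z : ZMod (2 * 6), 6 + 2 * z ∈ Ev := by decide +kernel
        exact hall _
      obtain ⟨x, hx, hx1⟩ := exists_ne c hmem
      have := step1' c hL hΛ _ hA (ih hx) hx hx1
      rwa [show r.val + 5 * (n + 1) + 5 = r.val + 5 * (n + 1 + 1) by ring] at this
  intro j hj
  have hcov : ∀ r : Fin 6, ∀ j : ZMod (2 * 6), j ∈ Ev → ∃ n : Fin 6,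
      6 + 2 * ((r.val + 5 * (n.val + 1) : ℕ) : ZMod (2 * 6)) = j := by decide +kernel
  obtain ⟨n, hn⟩ := hcov r j hj
  rw [← hn]
  exact h1 n.val

/-- few cosets of `A ∩ X 3` in `X 3` -/
theorem step3 (hΛ : Λ ≤ Nat.card ↥(fx σ) ^ 7 * Nat.card E ^ 2) {A : Subgroup L} (hA : IFK.Fix A)
    (hev : ∀ j ∈ Ev, c.X j ≤ A) : A.relIndex (c.X 3) < Nat.card ↥(fx σ) := by
  have h6 : c.x6 1 ∈ c.X 6 := c.mem6 (map_one σ)
  have h0 : c.pa (lo 1) ∈ c.X 0 := (c.pa_lo _).2 ⟨1, rfl⟩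
  have hne0 : c.pa (lo 1) ≠ 1 := by
    intro h
    have h1 : c.n6⁻¹ * c.x6 1 * c.n6 = 1 := by
      have e : c.n6 * c.pa (lo 1) * c.n6⁻¹ = (c.x6 1)⁻¹ := by
        show c.pa (wm 1 one_ne_zero) * c.pa (lo 1) * (c.pa (wm 1 one_ne_zero))⁻¹ = _
        rw [← map_inv, ← map_mul, ← map_mul, wm_lo', one_pow, mul_one, c.pa_up]
        show c.x6 (-1) = _
        rw [c.x6_neg (map_one σ)]
      rw [h, mul_one, mul_inv_cancel] at e
      have e' : c.x6 1 = 1 := inv_eq_one.1 e.symm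
      rw [e']
      group
    exact cj_ne' (x6_ne c) h1
  obtain ⟨f, h1, h2⟩ := s13 (Q := Sg c.X {4, 5, 6, 7, 8}) hA (hev 6 (by decide) h6) (ord6 c h6 (x6_ne c))
    (hev 0 (by decide) h0) (isConj_even' c (k := 6) (j := 0) (by decide) (by decide) h6 (x6_ne c) h0 hne0)
    (fun y hy => Subgroup.mem_centralizer_singleton_iff.2 (comm6 c hy h6)) (fun y hy h => opp c hy h)
  have h3 := index_even c hL (k := 6) (by decide) h6 (x6_ne c)
  rw [card_Q6] at h2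
  have h4 : f ^ 4 < Nat.card ↥(fx σ) ^ 4 := by
    have h5 : (Nat.card ↥(fx σ) ^ 3 * Nat.card E ^ 2) * f ^ 4 <
        (Nat.card ↥(fx σ) ^ 3 * Nat.card E ^ 2) * Nat.card ↥(fx σ) ^ 4 := by
      calc _ = f ^ 4 * (Nat.card ↥(fx σ) * (Nat.card ↥(fx σ) * Nat.card E) ^ 2) := by ring
        _ < _ := h2
        _ ≤ _ := h3
        _ ≤ _ := hΛ
        _ = _ := by ring
    exact lt_of_mul_lt_mul_left h5 (Nat.zero_le _)
  have h5 : f < Nat.card ↥(fx σ) := lt_of_pow_lt_pow_left₀ 4 (Nat.zero_le _) h4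
  refine lt_of_le_of_lt (h1 (c.X 3) ?_) h5
  intro y hy
  obtain ⟨a, rfl⟩ := (c.par.mem3 _).1 hy
  exact Subgroup.mem_centralizer_singleton_iff.2 (comm_of_kk (c.par.rel.c36 _ _ (map_one σ)))

/-- rotation -/
theorem rot_ev {A : Subgroup L} (r : ℕ) (hev : ∀ j ∈ Ev, c.X j ≤ A) : ∀ j ∈ Ev, c.X j ≤ MulAut.conj (rt c r)⁻¹ • A := by
  intro j hj x hx
  rw [mem_conj, inv_inv]
  have hall : ∀ z : ZMod (2 * 6), ∀ j ∈ Ev, j + 2 * z ∈ Ev := by decide +kernel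
  exact hev _ (hall r j hj) (rt_mem c rfl hx)

theorem step3' (hΛ : Λ ≤ Nat.card ↥(fx σ) ^ 7 * Nat.card E ^ 2) {A : Subgroup L} (hA : IFK.Fix A)
    (hev : ∀ j ∈ Ev, c.X j ≤ A) : A.relIndex (c.X 1) < Nat.card ↥(fx σ) := by
  have h1 := step3 c hL hΛ (hA.conj (rt c 11)⁻¹) (rot_ev c hL 11 hev)
  have h2 : MulAut.conj (rt c 11)⁻¹ • (c.X 1) = c.X 3 := by
    ext x
    rw [mem_conj, inv_inv]
    have h3 := c.maps_rot 11 3 x
    have e : (fun k : ZMod (2 * 6) => k + 2 * ((11 : ℕ) : ZMod (2 * 6))) 3 = 1 := by decide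
    rw [e] at h3
    exact h3
  rw [← h2, Subgroup.relIndex_pointwise_smul] at h1
  exact h1

omit hL in
theorem pa_mem {A : Subgroup L} (h6 : c.X 6 ≤ A) (h0 : c.X 0 ≤ A) (w : SL2 ↥(fx σ)) : c.pa w ∈ A := by
  have hu : ∀ t, c.pa (up t) ∈ A := fun t => by rw [c.pa_up]; exact h6 (c.mem6 t.2)
  have hl : ∀ t, c.pa (lo t) ∈ A := fun t => h0 ((c.pa_lo _).2 ⟨t, rfl⟩)
  obtain ⟨a1, a2, a3, a4, e⟩ := exists_up_lo w
  rw [e]
  simp only [map_mul]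
  exact mul_mem (mul_mem (mul_mem (hu _) (hl _)) (hu _)) (hl _)

omit hL in
theorem step4 {A : Subgroup L} (h6 : c.X 6 ≤ A) (h0 : c.X 0 ≤ A) (h : A.relIndex (c.X 1) < Nat.card ↥(fx σ)) :
    c.X 1 ≤ A := by
  by_contra hcon
  obtain ⟨y, hy, hyA⟩ := SetLike.not_le_iff_exists.1 hcon
  obtain ⟨a, rfl⟩ := (c.par.mem1 _).1 hy
  apply absurd h
  rw [not_lt]
  show _ ≤ Nat.card (c.X 1 ⧸ A.subgroupOf (c.X 1))
  refine Nat.card_le_card_of_injective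
    (fun s : ↥(fx σ) => (QuotientGroup.mk (⟨c.x1 (s * a), c.mem1 _⟩ : c.X 1) : c.X 1 ⧸ A.subgroupOf (c.X 1))) ?_
  intro s s' hss
  by_contra hne
  apply hyA
  have hss' : (QuotientGroup.mk (⟨c.x1 (s * a), c.mem1 _⟩ : c.X 1) : c.X 1 ⧸ A.subgroupOf (c.X 1)) =
      QuotientGroup.mk (⟨c.x1 (s' * a), c.mem1 _⟩ : c.X 1) := hss
  rw [QuotientGroup.eq, Subgroup.mem_subgroupOf] at hss'
  have h1 : (c.x1 (s * a))⁻¹ * c.x1 (s' * a) ∈ A := hss'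
  rw [← c.x1_neg, ← c.x1_add] at h1
  have hd : s' - s ≠ 0 := sub_ne_zero.2 (Ne.symm hne)
  have h2 := (c.act_a (s' - s) hd).a1 (-(s * a) + s' * a)
  have h3 : ((s' - s : ↥(fx σ)) : E)⁻¹ * (-((s : E) * a) + s' * a) = a := by
    have h4 : ((s' - s : ↥(fx σ)) : E) ≠ 0 := fun h => hd (Subtype.ext h)
    rw [inv_mul_eq_iff_eq_mul₀ h4]
    show _ = ((s' : E) - s) * a
    ring
  rw [h3] at h2
  rw [← h2]
  exact mul_mem (mul_mem (pa_mem c h6 h0 _) h1) (inv_mem (pa_mem c h6 h0 _))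

theorem step5 (hΛ : Λ ≤ Nat.card ↥(fx σ) ^ 7 * Nat.card E ^ 2) {A : Subgroup L} (hA : IFK.Fix A)
    (hev : ∀ j ∈ Ev, c.X j ≤ A) : A = ⊤ := by
  rw [eq_top_iff, ← c.gen]
  refine iSup_le fun k => ?_
  have hk : k ∈ Ev ∨ ∃ r : Fin 6, 1 + 2 * ((r.val : ℕ) : ZMod (2 * 6)) = k := by
    revert k
    decide +kernel
  rcases hk with hk | ⟨r, hr⟩
  · exact hev k hk
  · have h1 := rot_ev c hL r.val hev
    have h2 := step4 c (h1 6 (by decide)) (h1 0 (by decide))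
      (step3' c hL hΛ (hA.conj (rt c r.val)⁻¹) h1)
    intro x hx
    have h3 := h2 (rt_mem' c (k := 1) hr hx)
    rw [mem_conj, inv_inv] at h3
    rwa [show rt c r.val * ((rt c r.val)⁻¹ * x * rt c r.val) * (rt c r.val)⁻¹ = x by group] at h3

/-- no even root element in `A` -/
theorem step6 (hΛ1 : Λ ≤ 16 * Nat.card ↥(fx σ) * Nat.card E ^ 5) (hΛ2 : Λ ≤ Nat.card ↥(fx σ) ^ 7 * Nat.card E ^ 2)
    {A : Subgroup L} (hA : IFK.Fix A) (hne : A ≠ ⊤) {k : ZMod (2 * 6)} (hk : k ∈ Ev) {t : L} (ht : t ∈ A)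
    (htk : t ∈ c.X k) : t = 1 := by
  by_contra ht1
  exact hne (step5 c hL hΛ2 hA (step2 c hL hΛ1 hA hk ht htk ht1))

/-- no odd root element in `A` -/
theorem step7 (hΛ1 : Λ ≤ 16 * Nat.card ↥(fx σ) * Nat.card E ^ 5) (hΛ2 : Λ ≤ Nat.card ↥(fx σ) ^ 7 * Nat.card E ^ 2)
    (hL7 : Nat.card L ≤ (Nat.card ↥(fx σ) * Nat.card E) ^ 7)
    {A : Subgroup L} (hA : IFK.Fix A) (hne : A ≠ ⊤) {t : L} (ht : t ∈ A) (ht3 : t ∈ c.X 3) (ho : orderOf t = 2) :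
    False := by
  have hbot : A ⊓ c.X 4 = ⊥ := by
    rw [Subgroup.eq_bot_iff_forall]
    rintro x ⟨hx, hx4⟩
    exact step6 c hL hΛ1 hΛ2 hA hne (k := 4) (by decide) hx hx4
  have hZA : ¬ c.X 4 ≤ A := by
    intro h
    obtain ⟨x, hx, hx1⟩ := exists_ne c (k := 4) (by decide)
    exact hx1 (step6 c hL hΛ1 hΛ2 hA hne (k := 4) (by decide) (h hx) hx)
  have htQ : t ∈ Sg c.X {2, 3, 4, 5, 6} := X_le_Sg (by decide) ht3
  have h1 := s2 (w := 1) hA (sp c) (card_X4 c) (card_X4 c) (card_Q c) (by rw [hbot, Subgroup.card_bot]) hZA ht htQ ho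
  have h2 := card_centralizer_ge (sp c) le_rfl htQ
  rw [card_Q, card_X4, mul_comm] at h2
  have hq : 0 < Nat.card ↥(fx σ) := Nat.card_pos
  have h3 := Nat.le_of_mul_le_mul_right h2 hq
  have h4 : (Nat.card ↥(fx σ) * Nat.card E) ^ 2 ≤ Nat.card (centralizer ({t} : Set L)) :=
    h3.trans (Subgroup.card_le_of_le inf_le_right)
  have h5 := (centralizer ({t} : Set L)).card_mul_index
  set I := (centralizer ({t} : Set L)).index with hI
  set n := Nat.card ↥(fx σ) * Nat.card E with hn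
  have hr : 0 < Nat.card E := Nat.card_pos
  have hn0 : 0 < n := Nat.mul_pos hq hr
  have h6 : I ≤ n ^ 5 := by
    have h7 : n ^ 2 * I ≤ n ^ 2 * n ^ 5 := by
      calc n ^ 2 * I ≤ Nat.card (centralizer ({t} : Set L)) * I := Nat.mul_le_mul_right _ h4
        _ = Nat.card L := h5
        _ ≤ n ^ 7 := hL7
        _ = _ := by ring
    exact Nat.le_of_mul_le_mul_left h7 (pow_pos hn0 2)
  have h7 : Nat.card ↥(fx σ) ^ 5 * n ^ 5 < Nat.card ↥(fx σ) ^ 5 * I := by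
    calc _ = (Nat.card ↥(fx σ) * n) ^ 5 := by ring
      _ < _ := h1
      _ = _ := by ring
  exact absurd (lt_of_mul_lt_mul_left h7 (Nat.zero_le _)) (not_lt.2 h6)

/-- **The contradiction.** -/
theorem final (hΛ1 : Λ ≤ 16 * Nat.card ↥(fx σ) * Nat.card E ^ 5) (hΛ2 : Λ ≤ Nat.card ↥(fx σ) ^ 7 * Nat.card E ^ 2)
    (hL7 : Nat.card L ≤ (Nat.card ↥(fx σ) * Nat.card E) ^ 7)
    (hinv : ∀ t : L, orderOf t = 2 → ∃ k, ∃ y ∈ c.X k, IsConj t y)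
    {A : Subgroup L} (hA : IFK.Fix A) (hne : A ≠ ⊤) {t : L} (ht : t ∈ A) (ho : orderOf t = 2) : False := by
  obtain ⟨k, y, hy, hty⟩ := hinv t ho
  obtain ⟨g, hg⟩ := isConj_iff.1 hty
  have hcj : ∀ (g : L) (A : Subgroup L), A ≠ ⊤ → MulAut.conj g • A ≠ ⊤ := by
    intro g A hne h
    apply hne
    rw [Subgroup.eq_top_iff']
    intro x
    have : g * x * g⁻¹ ∈ MulAut.conj g • A := by rw [h]; exact mem_top _
    rw [mem_conj] at this
    rwa [show g⁻¹ * (g * x * g⁻¹) * g = x by group] at this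
  have hoy : orderOf y = 2 := by rw [← hg, orderOf_cj, ho]
  have hyA : y ∈ MulAut.conj g • A := by rw [← hg]; exact conj_mem_conj ht
  have hk : k ∈ Ev ∨ ∃ r : Fin 6, 3 + 2 * ((r.val : ℕ) : ZMod (2 * 6)) = k := by
    clear hy
    revert k
    decide +kernel
  rcases hk with hk | ⟨r, hr⟩
  · have h1 := step6 c hL hΛ1 hΛ2 (hA.conj g) (hcj g A hne) hk hyA hy
    rw [h1, orderOf_one] at hoy
    omega
  · have h1 := rt_mem' c (k := 3) hr hy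
    refine step7 c hL hΛ1 hΛ2 hL7 ((hA.conj g).conj (rt c r.val)⁻¹) (hcj _ _ (hcj g A hne))
      (t := (rt c r.val)⁻¹ * y * rt c r.val) ?_ h1 ?_
    · rw [mem_conj, inv_inv]
      rwa [show rt c r.val * ((rt c r.val)⁻¹ * y * rt c r.val) * (rt c r.val)⁻¹ = y by group]
    · have := orderOf_cj (rt c r.val)⁻¹ y
      rw [inv_inv] at this
      rw [this, hoy]

/-- **`KillE`** -/
theorem killE [IsSimpleGroup L] (hΛ1 : Λ ≤ 16 * Nat.card ↥(fx σ) * Nat.card E ^ 5)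
    (hΛ2 : Λ ≤ Nat.card ↥(fx σ) ^ 7 * Nat.card E ^ 2) (hL7 : Nat.card L ≤ (Nat.card ↥(fx σ) * Nat.card E) ^ 7)
    (hinv : ∀ t : L, orderOf t = 2 → ∃ k, ∃ y ∈ c.X k, IsConj t y) : H209.Fxy.KillE L := by
  rintro A Γ hIF ⟨t, ht, ho⟩
  have hna : ∃ a b : L, a * b ≠ b * a := by
    by_contra hcon
    push Not at hcon
    exact x6_ne c (c.cen _ fun x => hcon _ x)
  exact final c hL hΛ1 hΛ2 hL7 hinv (fix_of_IF hIF hna) hIF.ne_top ht ho

end num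

end Cfsg.Agent.H751.HexQ
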