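import Cfsg.Agent.Cit.HexTorus
import Cfsg.Agent.H255.IF.Key
import Cfsg.Agent.ClassicalGeometry.PSL2Basic

/-!
# S5719, `G₂` and `³D₄` in characteristic two: the group `Q = ⟨X 2, …, X 6⟩` (helper751)
-/

set_option autoImplicit false
set_option linter.unusedSectionVars false
set_option linter.unusedSimpArgs false

namespace Cfsg.Agent.H751.HexQ

open Subgroup Cfsg.Agent.SplitTwo Cfsg.Agent.TitsThree.RankTwoZ Cfsg.Agent.Lib.SL2Mat Cfsg.Agent.Cit.HexBase
open scoped commutatorElement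

variable {E : Type*} [Field E] {σ : E ≃+* E} {L : Type*} [Group L] (c : HexGrp σ L)

/-! ### Cardinalities -/

theorem card_insert [Finite L] {k : ZMod (2 * 6)} {s : Finset (ZMod (2 * 6))}
    (h : ∀ j ∈ s, j = k ∨ (k ≠ j + 6 ∧ bt k j ⊆ s)) (hs : HexGrp.Sep s {k}) :
    Nat.card (Sg c.X (insert k s)) = Nat.card (c.X k) * Nat.card (Sg c.X s) := by
  have hk : c.X k ≤ Sg c.X (insert k s) := X_le_Sg (Finset.mem_insert_self k s)
  have hs' : Sg c.X s ≤ Sg c.X (insert k s) := Sg_mono (Finset.subset_insert k s)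
  rw [← Nat.card_prod]
  refine (Nat.card_congr (Equiv.ofBijective
    (fun p : c.X k × Sg c.X s => (⟨(p.1 : L) * p.2, mul_mem (hk p.1.2) (hs' p.2.2)⟩ : Sg c.X (insert k s)))
    ⟨?_, ?_⟩)).symm
  · rintro ⟨x, v⟩ ⟨x', v'⟩ e
    obtain ⟨h1, h2⟩ := c.peel hs x.2 v.2 x'.2 v'.2 (congrArg Subtype.val e)
    exact Prod.ext (Subtype.ext h1) (Subtype.ext h2)
  · rintro ⟨g, hg⟩
    obtain ⟨x, hx, v, hv, rfl⟩ := c.exists_mul h hg
    exact ⟨(⟨x, hx⟩, ⟨v, hv⟩), rfl⟩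

theorem card_maps [Finite L] {n : L} {f : ZMod (2 * 6) → ZMod (2 * 6)} (hn : Maps c.X n f) (k : ZMod (2 * 6)) :
    Nat.card (c.X (f k)) = Nat.card (c.X k) := by
  refine (Nat.card_congr (Equiv.ofBijective
    (fun x : c.X k => (⟨n * x * n⁻¹, (hn k x).2 x.2⟩ : c.X (f k))) ⟨?_, ?_⟩)).symm
  · intro x y e
    have : n * (x : L) * n⁻¹ = n * y * n⁻¹ := congrArg Subtype.val e
    exact Subtype.ext (mul_left_cancel (mul_right_cancel this))
  · rintro ⟨g, hg⟩
    have e : g = n * (n⁻¹ * g * n) * n⁻¹ := by group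
    refine ⟨⟨n⁻¹ * g * n, (hn k _).1 (by rwa [← e])⟩, Subtype.ext e.symm⟩

theorem card_X6 [Finite L] : Nat.card (c.X 6) = Nat.card ↥(fx σ) := by
  refine (Nat.card_congr (Equiv.ofBijective (fun t : ↥(fx σ) => (⟨c.x6 t, c.mem6 t.2⟩ : c.X 6)) ⟨?_, ?_⟩)).symm
  · intro t u e
    exact Subtype.ext (c.x6_inj t.2 u.2 (congrArg Subtype.val e))
  · rintro ⟨g, hg⟩
    obtain ⟨a, ha, rfl⟩ := (c.par.mem6 _).1 hg
    exact ⟨⟨a, ha⟩, rfl⟩

theorem card_X1 [Finite L] : Nat.card (c.X 1) = Nat.card E := by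
  refine (Nat.card_congr (Equiv.ofBijective (fun t : E => (⟨c.x1 t, c.mem1 t⟩ : c.X 1)) ⟨?_, ?_⟩)).symm
  · intro t u e
    exact c.x1_inj (congrArg Subtype.val e)
  · rintro ⟨g, hg⟩
    obtain ⟨a, rfl⟩ := (c.par.mem1 _).1 hg
    exact ⟨a, rfl⟩

theorem card_even [Finite L] (r : Fin 6) : Nat.card (c.X (6 + 2 * (r.val : ZMod (2 * 6)))) = Nat.card ↥(fx σ) := by
  rw [card_maps c (c.maps_rot r.val) 6, card_X6]

theorem card_odd [Finite L] (r : Fin 6) : Nat.card (c.X (1 + 2 * (r.val : ZMod (2 * 6)))) = Nat.card E := by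
  rw [card_maps c (c.maps_rot r.val) 1, card_X1]

theorem card_X2 [Finite L] : Nat.card (c.X 2) = Nat.card ↥(fx σ) := card_even c 4
theorem card_X4 [Finite L] : Nat.card (c.X 4) = Nat.card ↥(fx σ) := card_even c 5
theorem card_X3 [Finite L] : Nat.card (c.X 3) = Nat.card E := card_odd c 1
theorem card_X5 [Finite L] : Nat.card (c.X 5) = Nat.card E := card_odd c 2

theorem Sg_single (k : ZMod (2 * 6)) : Sg c.X {k} = c.X k := by
  unfold Sg
  simp

/-- `|Q| = q³ r²` -/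
theorem card_Q [Finite L] : Nat.card (Sg c.X {2, 3, 4, 5, 6}) =
    Nat.card ↥(fx σ) * (Nat.card ↥(fx σ) * Nat.card E) ^ 2 := by
  have h1 := card_insert c (k := 2) (s := {3, 4, 5, 6}) (by decide +kernel) (by decide +kernel)
  have h2 := card_insert c (k := 3) (s := {4, 5, 6}) (by decide +kernel) (by decide +kernel)
  have h3 := card_insert c (k := 4) (s := {5, 6}) (by decide +kernel) (by decide +kernel)
  have h4 := card_insert c (k := 5) (s := {6}) (by decide +kernel) (by decide +kernel)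
  rw [Sg_single, card_X6, card_X5] at h4
  rw [h4, card_X4] at h3
  rw [h3, card_X3] at h2
  rw [h2, card_X2] at h1
  rw [h1]
  ring

/-! ### Commutators in `Q` -/

theorem comm_of_kk {x y : L} (h : kk x y = 1) : x * y = y * x := by
  unfold kk at h
  calc x * y = y * x * (x⁻¹ * y⁻¹ * x * y) := by group
    _ = y * x := by rw [h, mul_one]

/-- `X 4` commutes with `X 1, …, X 6` -/
theorem comm4 {k : ZMod (2 * 6)} (hk : k ∈ ({1, 2, 3, 4, 5, 6} : Finset (ZMod (2 * 6)))) {x y : L} (hx : x ∈ c.X k)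
    (hy : y ∈ c.X 4) : x * y = y * x := by
  obtain ⟨t, ht, rfl⟩ := (c.par.mem4 _).1 hy
  simp only [Finset.mem_insert, Finset.mem_singleton] at hk
  rcases hk with rfl | rfl | rfl | rfl | rfl | rfl
  · obtain ⟨a, rfl⟩ := (c.par.mem1 _).1 hx
    exact comm_of_kk (c.par.rel.c14 a t ht)
  · obtain ⟨a, ha, rfl⟩ := (c.par.mem2 _).1 hx
    exact comm_of_kk (c.par.rel.c24 a t ha ht)
  · obtain ⟨a, rfl⟩ := (c.par.mem3 _).1 hx
    exact comm_of_kk (c.par.rel.c34 a t ht)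
  · obtain ⟨a, ha, rfl⟩ := (c.par.mem4 _).1 hx
    rw [← c.x4_add ha ht, ← c.x4_add ht ha, add_comm]
  · obtain ⟨a, rfl⟩ := (c.par.mem5 _).1 hx
    exact (comm_of_kk (c.par.rel.c45 t a ht)).symm
  · obtain ⟨a, ha, rfl⟩ := (c.par.mem6 _).1 hx
    exact (comm_of_kk (c.par.rel.c46 t a ht ha)).symm

theorem comm4' {x y : L} (hx : x ∈ Sg c.X {1, 2, 3, 4, 5, 6}) (hy : y ∈ c.X 4) : x * y = y * x := by
  have key : Sg c.X {1, 2, 3, 4, 5, 6} ≤ centralizer ({y} : Set L) := by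
    refine Sg_le fun k hk z hz => ?_
    rw [Subgroup.mem_centralizer_singleton_iff]
    exact comm4 c hk hz hy
  exact Subgroup.mem_centralizer_singleton_iff.1 (key hx)

/-- `X 7` commutes with `X 4` -/
theorem comm74 {x y : L} (hx : x ∈ c.X 7) (hy : y ∈ c.X 4) : x * y = y * x := by
  have h1 : c.n1 * x * c.n1⁻¹ ∈ c.X 1 := HexGrp.maps_mem c.maps_n1 hx (by decide)
  have h2 : c.n1 * y * c.n1⁻¹ ∈ c.X 4 := HexGrp.maps_mem c.maps_n1 hy (by decide)
  have h3 := comm4 c (k := 1) (by decide) h1 h2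
  calc x * y = c.n1⁻¹ * ((c.n1 * x * c.n1⁻¹) * (c.n1 * y * c.n1⁻¹)) * c.n1 := by group
    _ = c.n1⁻¹ * ((c.n1 * y * c.n1⁻¹) * (c.n1 * x * c.n1⁻¹)) * c.n1 := by rw [h3]
    _ = y * x := by group

/-- `pb` commutes with `X 4` -/
theorem comm_pb (w : SL2 E) {y : L} (hy : y ∈ c.X 4) : c.pb w * y = y * c.pb w := by
  have h := c.fix_pb (φ := (MulAut.conj y).toMonoidHom) (fun a => by
    show y * c.x1 a * y⁻¹ = _
    rw [← comm4 c (k := 1) (by decide) (c.mem1 a) hy, mul_inv_cancel_right]) (fun g hg => by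
    show y * g * y⁻¹ ∈ _
    rw [← comm74 c hg hy, mul_inv_cancel_right]
    exact hg) w
  have h1 : y * c.pb w * y⁻¹ = c.pb w := h
  rw [mul_inv_eq_iff_eq_mul] at h1
  exact h1.symm

/-! ### `pb (SL₂) ∩ Q = 1` -/

theorem wlow (w : SL2 E) (h : ent w 1 1 ≠ 0) :
    w = up (ent w 0 1 / ent w 1 1) * dg (ent w 1 1)⁻¹ (inv_ne_zero h) * lo (ent w 1 0 / ent w 1 1) := by
  have hd := det_eq w
  refine ext_ent ?_ ?_ ?_ ?_
  · simp only [ent_mul, up_00, up_01, up_10, up_11, lo_00, lo_01, lo_10, lo_11, dg_00, dg_01, dg_10, dg_11, inv_inv]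
    field_simp
    linear_combination hd
  · simp only [ent_mul, up_00, up_01, up_10, up_11, lo_00, lo_01, lo_10, lo_11, dg_00, dg_01, dg_10, dg_11, inv_inv]
    field_simp
    ring
  · simp only [ent_mul, up_00, up_01, up_10, up_11, lo_00, lo_01, lo_10, lo_11, dg_00, dg_01, dg_10, dg_11, inv_inv]
    field_simp
    ring
  · simp only [ent_mul, up_00, up_01, up_10, up_11, lo_00, lo_01, lo_10, lo_11, dg_00, dg_01, dg_10, dg_11, inv_inv]
    field_simp
    ring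

theorem pb_dg_inj [CharP E 2] {s : E} (hs : s ≠ 0) (h : c.pb (dg s hs) = 1) : s = 1 := by
  have h1 := (c.act_b s hs).a1 1
  rw [h, one_mul, inv_one, mul_one, mul_one] at h1
  have h2 := c.x1_inj h1
  have h3 : (s - 1) ^ 2 = 0 := by
    have : (2 : E) = 0 := CharTwo.two_eq_zero
    linear_combination h2.symm - this * (s - 1)
  exact sub_eq_zero.1 (pow_eq_zero_iff two_ne_zero |>.1 h3)

theorem pb_Q_aux [CharP E 2] {u : L} (hu : u ∈ Sg c.X {2, 3, 4, 5, 6}) {w : SL2 E} (h : u = c.pb w)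
    (hd : ent w 1 1 ≠ 0) : w = 1 := by
  have hw := wlow w hd
  set s : E := (ent w 1 1)⁻¹ with hsdef
  set b : E := ent w 0 1 / ent w 1 1 with hb
  set cc : E := ent w 1 0 / ent w 1 1 with hcc
  have hs : s ≠ 0 := inv_ne_zero hd
  have h1 : (c.x1 b)⁻¹ * u = c.pb (dg s hs) * c.pa (dg 1 one_ne_zero) * c.pb (lo cc) := by
    rw [h, ← c.pb_up, dg_one', map_one, mul_one, ← map_inv, ← map_mul, ← map_mul]
    congr 1
    calc (up b)⁻¹ * w = (up b)⁻¹ * (up b * dg s hs * lo cc) := by rw [← hw]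
      _ = _ := by group
  have h7 : c.pb (lo cc) ∈ c.X 7 := (c.pb_lo _).2 ⟨cc, rfl⟩
  obtain ⟨h2, h3⟩ := c.tri _ (mul_mem (inv_mem (X_le_Sg (by decide) (c.mem1 b))) (Sg_mono (by decide) hu)) _
    (X_le_Sg (by decide) h7) s hs 1 one_ne_zero h1
  have h4 : u = c.x1 b := by
    rw [inv_mul_eq_one] at h2
    exact h2.symm
  have h5 : u = 1 := c.eq_one_of_mem (k := 1) (s := {2, 3, 4, 5, 6}) (by decide +kernel) (by rw [h4]; exact c.mem1 b) hu
  rw [h2, h3, dg_one', map_one, mul_one, mul_one] at h1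
  have h6 : s = 1 := pb_dg_inj c hs h1.symm
  have h8 : b = 0 := by
    rw [h5] at h4
    rw [← c.x1_zero] at h4
    exact (c.x1_inj h4).symm
  have h9 : cc = 0 := by
    by_contra hne
    obtain ⟨x, hx⟩ : ∃ x : SL2 E, x = wm (1 : E) one_ne_zero := ⟨_, rfl⟩
    have e1 : wm (1 : E) one_ne_zero * lo cc * (wm (1 : E) one_ne_zero)⁻¹ = up (-cc) := by
      rw [wm_lo', one_pow, mul_one]
    have e2 : c.x1 (-cc) = 1 := by
      rw [← c.pb_up, ← e1, map_mul, map_mul, h3, mul_one, ← map_mul, mul_inv_cancel, map_one]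
    rw [← c.x1_zero] at e2
    exact hne (neg_eq_zero.1 (c.x1_inj e2))
  clear_value s b cc
  subst h8 h9 h6
  rw [up_zero, lo_zero, one_mul, mul_one] at hw
  have he : ent w 1 1 = 1 := inv_eq_one.1 hsdef.symm
  refine hw.trans (ext_ent ?_ ?_ ?_ ?_) <;> simp [he]

/-- **`pb (SL₂) ∩ Q = 1`, and `pb` is injective.** -/
theorem pb_Q [CharP E 2] {u : L} (hu : u ∈ Sg c.X {2, 3, 4, 5, 6}) {w : SL2 E} (h : u = c.pb w) : w = 1 := by
  by_cases hd : ent w 1 1 = 0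
  · exfalso
    have hdet := det_eq w
    rw [hd] at hdet
    have h10 : ent w 1 0 ≠ 0 := by
      intro h0
      rw [h0] at hdet
      simp at hdet
    have h1 : ent (up 1 * w * (up 1)⁻¹) 1 1 ≠ 0 := by
      rw [up_inv]
      simp only [ent_mul, up_00, up_01, up_10, up_11, hd]
      simpa using h10
    have h2 : c.x1 1 * u * (c.x1 1)⁻¹ ∈ Sg c.X {2, 3, 4, 5, 6} :=
      c.conj_mem_Sg (by decide +kernel) (c.mem1 1) hu
    have h3 := pb_Q_aux c h2 (w := up 1 * w * (up 1)⁻¹) (by rw [h, ← c.pb_up]; simp only [map_mul, map_inv]) h1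
    rw [mul_inv_eq_one, mul_eq_left] at h3
    rw [h3] at hd
    simp at hd
  · exact pb_Q_aux c hu h hd

end Cfsg.Agent.H751.HexQ
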