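import Cfsg.Agent.H751.IF.HexQ

/-!
# S5719, `G₂` and `³D₄` in characteristic two: `Q` is special, centralisers, conjugacy (helper751)
-/

set_option autoImplicit false
set_option linter.unusedSectionVars false
set_option linter.unusedSimpArgs false

namespace Cfsg.Agent.H751.HexQ

open Subgroup Cfsg.Agent.SplitTwo Cfsg.Agent.TitsThree.RankTwoZ Cfsg.Agent.Lib.SL2Mat Cfsg.Agent.Cit.HexBase
open scoped commutatorElement

variable {E : Type*} [Field E] {σ : E ≃+* E} {L : Type*} [Group L] (c : HexGrp σ L)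

/-- the commutator of root elements of `Q`, in the form `x y x⁻¹ y⁻¹` -/
theorem cm_of_kk {x y z : L} (h : kk x⁻¹ y⁻¹ = z) : x * y * x⁻¹ * y⁻¹ = z := by
  rw [← h]
  unfold kk
  group

theorem cm_symm {x y : L} {H : Subgroup L} (h : x * y * x⁻¹ * y⁻¹ ∈ H) : y * x * y⁻¹ * x⁻¹ ∈ H := by
  have := inv_mem h
  have e : (x * y * x⁻¹ * y⁻¹)⁻¹ = y * x * y⁻¹ * x⁻¹ := by group
  rwa [e] at this

theorem cm_of_comm {x y : L} {H : Subgroup L} (h : x * y = y * x) : x * y * x⁻¹ * y⁻¹ ∈ H := by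
  rw [h, mul_inv_cancel_right, mul_inv_cancel]
  exact one_mem H

theorem cm26 {t u : E} (ht : σ t = t) (hu : σ u = u) :
    c.x2 t * c.x6 u * (c.x2 t)⁻¹ * (c.x6 u)⁻¹ = c.x4 (t * u) := by
  apply cm_of_kk
  rw [← c.x2_neg ht, ← c.x6_neg hu, c.par.rel.c26 _ _ (HexGrp.neg_fix ht) (HexGrp.neg_fix hu), neg_mul_neg]

theorem cm35 (a b : E) : c.x3 a * c.x5 b * (c.x3 a)⁻¹ * (c.x5 b)⁻¹ = c.x4 (trc σ a b) := by
  apply cm_of_kk
  rw [← c.x3_neg, ← c.x5_neg, c.par.rel.c35]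
  congr 1
  unfold trc
  rw [neg_mul_neg]

/-- commutators of root elements of `Q` are in `X 4` -/
theorem cm_gen {j k : ZMod (2 * 6)} (hj : j ∈ ({2, 3, 4, 5, 6} : Finset (ZMod (2 * 6))))
    (hk : k ∈ ({2, 3, 4, 5, 6} : Finset (ZMod (2 * 6)))) {x y : L} (hx : x ∈ c.X j) (hy : y ∈ c.X k) :
    x * y * x⁻¹ * y⁻¹ ∈ c.X 4 := by
  have key : ∀ j k : ZMod (2 * 6), j ∈ ({2, 3, 4, 5, 6} : Finset (ZMod (2 * 6))) →
      k ∈ ({2, 3, 4, 5, 6} : Finset (ZMod (2 * 6))) → (j = 4 ∨ k = 4) ∨ j = k ∨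
      (j, k) ∈ ({(2, 3), (2, 5), (2, 6), (3, 5), (3, 6), (5, 6)} : Finset (ZMod (2 * 6) × ZMod (2 * 6))) ∨
      (k, j) ∈ ({(2, 3), (2, 5), (2, 6), (3, 5), (3, 6), (5, 6)} : Finset (ZMod (2 * 6) × ZMod (2 * 6))) := by
    decide +kernel
  have hsame : ∀ j : ZMod (2 * 6), j ∈ ({2, 3, 4, 5, 6} : Finset (ZMod (2 * 6))) → ∀ x ∈ c.X j, ∀ y ∈ c.X j,
      x * y = y * x := by
    intro j hj x hx y hy
    simp only [Finset.mem_insert, Finset.mem_singleton] at hj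
    rcases hj with rfl | rfl | rfl | rfl | rfl
    · obtain ⟨a, ha, rfl⟩ := (c.par.mem2 _).1 hx
      obtain ⟨b, hb, rfl⟩ := (c.par.mem2 _).1 hy
      rw [← c.x2_add ha hb, ← c.x2_add hb ha, add_comm]
    · obtain ⟨a, rfl⟩ := (c.par.mem3 _).1 hx
      obtain ⟨b, rfl⟩ := (c.par.mem3 _).1 hy
      rw [← c.x3_add, ← c.x3_add, add_comm]
    · obtain ⟨a, ha, rfl⟩ := (c.par.mem4 _).1 hx
      obtain ⟨b, hb, rfl⟩ := (c.par.mem4 _).1 hy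
      rw [← c.x4_add ha hb, ← c.x4_add hb ha, add_comm]
    · obtain ⟨a, rfl⟩ := (c.par.mem5 _).1 hx
      obtain ⟨b, rfl⟩ := (c.par.mem5 _).1 hy
      rw [← c.x5_add, ← c.x5_add, add_comm]
    · obtain ⟨a, ha, rfl⟩ := (c.par.mem6 _).1 hx
      obtain ⟨b, hb, rfl⟩ := (c.par.mem6 _).1 hy
      rw [← c.x6_add ha hb, ← c.x6_add hb ha, add_comm]
  have h23 : ∀ x ∈ c.X 2, ∀ y ∈ c.X 3, x * y * x⁻¹ * y⁻¹ ∈ c.X 4 := by
    intro x hx y hy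
    obtain ⟨a, ha, rfl⟩ := (c.par.mem2 _).1 hx
    obtain ⟨b, rfl⟩ := (c.par.mem3 _).1 hy
    exact cm_of_comm (comm_of_kk (c.par.rel.c23 a b ha))
  have h25 : ∀ x ∈ c.X 2, ∀ y ∈ c.X 5, x * y * x⁻¹ * y⁻¹ ∈ c.X 4 := by
    intro x hx y hy
    obtain ⟨a, ha, rfl⟩ := (c.par.mem2 _).1 hx
    obtain ⟨b, rfl⟩ := (c.par.mem5 _).1 hy
    exact cm_of_comm (comm_of_kk (c.par.rel.c25 a b ha))
  have h26 : ∀ x ∈ c.X 2, ∀ y ∈ c.X 6, x * y * x⁻¹ * y⁻¹ ∈ c.X 4 := by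
    intro x hx y hy
    obtain ⟨a, ha, rfl⟩ := (c.par.mem2 _).1 hx
    obtain ⟨b, hb, rfl⟩ := (c.par.mem6 _).1 hy
    rw [cm26 c ha hb]
    exact c.mem4 (mul_fix ha hb)
  have h35 : ∀ x ∈ c.X 3, ∀ y ∈ c.X 5, x * y * x⁻¹ * y⁻¹ ∈ c.X 4 := by
    intro x hx y hy
    obtain ⟨a, rfl⟩ := (c.par.mem3 _).1 hx
    obtain ⟨b, rfl⟩ := (c.par.mem5 _).1 hy
    rw [cm35]
    exact c.mem4 (trc_fix c.cube a b)
  have h36 : ∀ x ∈ c.X 3, ∀ y ∈ c.X 6, x * y * x⁻¹ * y⁻¹ ∈ c.X 4 := by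
    intro x hx y hy
    obtain ⟨a, rfl⟩ := (c.par.mem3 _).1 hx
    obtain ⟨b, hb, rfl⟩ := (c.par.mem6 _).1 hy
    exact cm_of_comm (comm_of_kk (c.par.rel.c36 a b hb))
  have h56 : ∀ x ∈ c.X 5, ∀ y ∈ c.X 6, x * y * x⁻¹ * y⁻¹ ∈ c.X 4 := by
    intro x hx y hy
    obtain ⟨a, rfl⟩ := (c.par.mem5 _).1 hx
    obtain ⟨b, hb, rfl⟩ := (c.par.mem6 _).1 hy
    exact cm_of_comm (comm_of_kk (c.par.rel.c56 a b hb))
  have hup : ∀ k : ZMod (2 * 6), k ∈ ({2, 3, 4, 5, 6} : Finset (ZMod (2 * 6))) →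
      k ∈ ({1, 2, 3, 4, 5, 6} : Finset (ZMod (2 * 6))) := by decide +kernel
  have hlist : ∀ j k : ZMod (2 * 6),
      (j, k) ∈ ({(2, 3), (2, 5), (2, 6), (3, 5), (3, 6), (5, 6)} : Finset (ZMod (2 * 6) × ZMod (2 * 6))) →
      ∀ x ∈ c.X j, ∀ y ∈ c.X k, x * y * x⁻¹ * y⁻¹ ∈ c.X 4 := by
    intro j k h
    simp only [Finset.mem_insert, Finset.mem_singleton, Prod.mk.injEq] at h
    rcases h with ⟨rfl, rfl⟩ | ⟨rfl, rfl⟩ | ⟨rfl, rfl⟩ | ⟨rfl, rfl⟩ | ⟨rfl, rfl⟩ | ⟨rfl, rfl⟩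
    · exact h23
    · exact h25
    · exact h26
    · exact h35
    · exact h36
    · exact h56
  rcases key j k hj hk with (rfl | rfl) | rfl | h | h
  · exact cm_of_comm (comm4 c (hup k hk) hy hx).symm
  · exact cm_of_comm (comm4 c (hup j hj) hx hy)
  · exact cm_of_comm (hsame _ hj x hx y hy)
  · exact hlist _ _ h x hx y hy
  · exact cm_symm (hlist _ _ h y hy x hx)

theorem X4_le : c.X 4 ≤ Sg c.X {2, 3, 4, 5, 6} := X_le_Sg (by decide)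

theorem central {x y : L} (hx : x ∈ Sg c.X {2, 3, 4, 5, 6}) (hy : y ∈ c.X 4) : x * y = y * x :=
  comm4' c (Sg_mono (by decide) hx) hy

/-- commutators in `Q` -/
theorem cm_mem {x y : L} (hx : x ∈ Sg c.X {2, 3, 4, 5, 6}) (hy : y ∈ Sg c.X {2, 3, 4, 5, 6}) :
    x * y * x⁻¹ * y⁻¹ ∈ c.X 4 := by
  -- the elements `y` of `Q` with `[x, y] ∈ X 4`
  have key : ∀ x ∈ Sg c.X {2, 3, 4, 5, 6}, ∃ H : Subgroup L, (H : Set L) =
      {y | y ∈ Sg c.X {2, 3, 4, 5, 6} ∧ x * y * x⁻¹ * y⁻¹ ∈ c.X 4} := by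
    intro x hx
    refine ⟨
      { carrier := {y | y ∈ Sg c.X {2, 3, 4, 5, 6} ∧ x * y * x⁻¹ * y⁻¹ ∈ c.X 4}
        one_mem' := ⟨one_mem _, by simp⟩
        mul_mem' := ?_
        inv_mem' := ?_ }, rfl⟩
    · rintro y z ⟨hy, hy'⟩ ⟨hz, hz'⟩
      refine ⟨mul_mem hy hz, ?_⟩
      have e : x * (y * z) * x⁻¹ * (y * z)⁻¹ = (x * y * x⁻¹ * y⁻¹) * (x * z * x⁻¹ * z⁻¹) := by
        have h1 := central c hy hz'
        calc x * (y * z) * x⁻¹ * (y * z)⁻¹ = (x * y * x⁻¹ * y⁻¹) * (y * (x * z * x⁻¹ * z⁻¹) * y⁻¹) := by group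
          _ = _ := by rw [h1, mul_inv_cancel_right]
      rw [e]
      exact mul_mem hy' hz'
    · rintro y ⟨hy, hy'⟩
      refine ⟨inv_mem hy, ?_⟩
      have e : x * y⁻¹ * x⁻¹ * y⁻¹⁻¹ = (x * y * x⁻¹ * y⁻¹)⁻¹ := by
        have h1 := central c (inv_mem hy) (inv_mem hy')
        calc x * y⁻¹ * x⁻¹ * y⁻¹⁻¹ = y⁻¹ * (x * y * x⁻¹ * y⁻¹)⁻¹ * y := by group
          _ = _ := by rw [h1, inv_mul_cancel_right]
      rw [e]
      exact inv_mem hy'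
  have h1 : ∀ k ∈ ({2, 3, 4, 5, 6} : Finset (ZMod (2 * 6))), ∀ z ∈ c.X k, ∀ x ∈ Sg c.X {2, 3, 4, 5, 6},
      z * x * z⁻¹ * x⁻¹ ∈ c.X 4 := by
    intro k hk z hz x hx
    obtain ⟨H, hH⟩ := key z (X_le_Sg hk hz)
    have h2 : Sg c.X {2, 3, 4, 5, 6} ≤ H := by
      refine Sg_le fun j hj w hw => ?_
      rw [← SetLike.mem_coe, hH]
      exact ⟨X_le_Sg hj hw, cm_gen c hk hj hz hw⟩
    have h3 := h2 hx
    rw [← SetLike.mem_coe, hH] at h3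
    exact h3.2
  obtain ⟨H, hH⟩ := key x hx
  have h2 : Sg c.X {2, 3, 4, 5, 6} ≤ H := by
    refine Sg_le fun j hj w hw => ?_
    rw [← SetLike.mem_coe, hH]
    exact ⟨X_le_Sg hj hw, cm_symm (h1 j hj w hw x hx)⟩
  have h3 := h2 hy
  rw [← SetLike.mem_coe, hH] at h3
  exact h3.2

/-- `[p m s, y] = [m, y]` -/
theorem cm_mid {p m s y w : L} (hp : p * y = y * p) (hs : s * y = y * s) (hm : m * y * m⁻¹ * y⁻¹ = w)
    (hw : p * w = w * p) : (p * m * s) * y * (p * m * s)⁻¹ * y⁻¹ = w := by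
  calc (p * m * s) * y * (p * m * s)⁻¹ * y⁻¹ = p * m * (s * y) * s⁻¹ * m⁻¹ * p⁻¹ * y⁻¹ := by group
    _ = p * (m * y * m⁻¹ * y⁻¹) * (y * p⁻¹ * y⁻¹) := by rw [hs]; group
    _ = (p * w) * (y * p⁻¹ * y⁻¹) := by rw [hm]
    _ = w * (p * y) * p⁻¹ * y⁻¹ := by rw [hw]; group
    _ = w := by rw [hp]; group

theorem three_mul [CharP E 2] (z : E) (hz : σ z = z) (a : E) (ha : a ≠ 0) : trc σ a (z / a) = z := by
  unfold trc
  rw [mul_div_cancel₀ _ ha, hz, hz]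
  have : (2 : E) = 0 := CharTwo.two_eq_zero
  linear_combination z * this

theorem trc_comm (a b : E) : trc σ a b = trc σ b a := by
  unfold trc
  rw [mul_comm a b]

theorem neg_eq' [CharP E 2] (z : E) : -z = z := CharTwo.neg_eq z

/-- a general element of `Q` -/
def el (t a w b u : E) : L := c.x2 t * (c.x3 a * (c.x4 w * (c.x5 b * c.x6 u)))

theorem exists_el {x : L} (hx : x ∈ Sg c.X {2, 3, 4, 5, 6}) :
    ∃ t a w b u : E, σ t = t ∧ σ w = w ∧ σ u = u ∧ x = el c t a w b u := by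
  obtain ⟨y2, hy2, v3, hv3, e2⟩ := c.exists_mul (k := 2) (s := {3, 4, 5, 6}) (by decide +kernel) hx
  obtain ⟨y3, hy3, v4, hv4, e3⟩ := c.exists_mul (k := 3) (s := {4, 5, 6}) (by decide +kernel) hv3
  obtain ⟨y4, hy4, v5, hv5, e4⟩ := c.exists_mul (k := 4) (s := {5, 6}) (by decide +kernel) hv4
  obtain ⟨y5, hy5, v6, hv6, e5⟩ := c.exists_mul (k := 5) (s := {6}) (by decide +kernel) hv5
  rw [Sg_single] at hv6
  obtain ⟨t, ht, e2'⟩ := (c.par.mem2 _).1 hy2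
  obtain ⟨a, e3'⟩ := (c.par.mem3 _).1 hy3
  obtain ⟨w, hw, e4'⟩ := (c.par.mem4 _).1 hy4
  obtain ⟨b, e5'⟩ := (c.par.mem5 _).1 hy5
  obtain ⟨u, hu, e6'⟩ := (c.par.mem6 _).1 hv6
  refine ⟨t, a, w, b, u, ht, hw, hu, ?_⟩
  unfold el
  rw [e2', e3', e4', e5', e6', e2, e3, e4, e5]

theorem q2 {t : E} (h : σ t = t) : c.x2 t ∈ Sg c.X {2, 3, 4, 5, 6} := X_le_Sg (by decide) (c.mem2 h)
theorem q3 (t : E) : c.x3 t ∈ Sg c.X {2, 3, 4, 5, 6} := X_le_Sg (by decide) (c.mem3 t)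
theorem q4 {t : E} (h : σ t = t) : c.x4 t ∈ Sg c.X {2, 3, 4, 5, 6} := X_le_Sg (by decide) (c.mem4 h)
theorem q5 (t : E) : c.x5 t ∈ Sg c.X {2, 3, 4, 5, 6} := X_le_Sg (by decide) (c.mem5 t)
theorem q6 {t : E} (h : σ t = t) : c.x6 t ∈ Sg c.X {2, 3, 4, 5, 6} := X_le_Sg (by decide) (c.mem6 h)

theorem cm_inv {x y z : L} (h : y * x * y⁻¹ * x⁻¹ = z) : x * y * x⁻¹ * y⁻¹ = z⁻¹ := by
  rw [← h]
  group

/-- `u ≠ 0` -/
theorem special_u [CharP E 2] {w u z : E} (hw : σ w = w) (hu : σ u = u) (hz : σ z = z) (hu0 : u ≠ 0) :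
    ∃ y ∈ Sg c.X {2, 3, 4, 5, 6}, el c 0 0 w 0 u * y * (el c 0 0 w 0 u)⁻¹ * y⁻¹ = c.x4 z := by
  have hf : σ (z / u) = z / u := by rw [map_div₀, hz, hu]
  refine ⟨c.x2 (z / u), q2 c hf, ?_⟩
  have h1 := cm26 c hf hu
  rw [div_mul_cancel₀ _ hu0] at h1
  have hm : c.x6 u * c.x2 (z / u) * (c.x6 u)⁻¹ * (c.x2 (z / u))⁻¹ = c.x4 z := by
    rw [cm_inv h1, ← c.x4_neg hz, neg_eq']
  have h3 := cm_mid (p := c.x4 w) (m := c.x6 u) (s := 1) (y := c.x2 (z / u)) (w := c.x4 z)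
    (comm_of_kk (c.par.rel.c24 _ _ hf hw)).symm (by rw [one_mul, mul_one]) hm
    (central c (q4 c hw) (c.mem4 hz))
  rw [mul_one] at h3
  unfold el
  rw [c.x2_zero, c.x3_zero, c.x5_zero, one_mul, one_mul, one_mul]
  exact h3

/-- `b ≠ 0` -/
theorem special_b [CharP E 2] {w b u z : E} (hw : σ w = w) (hu : σ u = u) (hz : σ z = z) (hb0 : b ≠ 0) :
    ∃ y ∈ Sg c.X {2, 3, 4, 5, 6}, el c 0 0 w b u * y * (el c 0 0 w b u)⁻¹ * y⁻¹ = c.x4 z := by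
  refine ⟨c.x3 (z / b), q3 c _, ?_⟩
  have h1 := cm35 c (z / b) b
  rw [trc_comm, three_mul z hz b hb0] at h1
  have hm : c.x5 b * c.x3 (z / b) * (c.x5 b)⁻¹ * (c.x3 (z / b))⁻¹ = c.x4 z := by
    rw [cm_inv h1, ← c.x4_neg hz, neg_eq']
  have h3 := cm_mid (p := c.x4 w) (m := c.x5 b) (s := c.x6 u) (y := c.x3 (z / b)) (w := c.x4 z)
    (comm_of_kk (c.par.rel.c34 _ _ hw)).symm (comm_of_kk (c.par.rel.c36 _ _ hu)).symm hm
    (central c (q4 c hw) (c.mem4 hz))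
  unfold el
  rw [c.x2_zero, c.x3_zero, one_mul, one_mul, ← mul_assoc]
  exact h3

/-- `a ≠ 0` -/
theorem special_a [CharP E 2] {a w b u z : E} (hw : σ w = w) (hu : σ u = u) (hz : σ z = z) (ha0 : a ≠ 0) :
    ∃ y ∈ Sg c.X {2, 3, 4, 5, 6}, el c 0 a w b u * y * (el c 0 a w b u)⁻¹ * y⁻¹ = c.x4 z := by
  refine ⟨c.x5 (z / a), q5 c _, ?_⟩
  have hm : c.x3 a * c.x5 (z / a) * (c.x3 a)⁻¹ * (c.x5 (z / a))⁻¹ = c.x4 z := by
    rw [cm35, three_mul z hz a ha0]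
  have e1 : c.x4 w * c.x5 (z / a) = c.x5 (z / a) * c.x4 w := comm_of_kk (c.par.rel.c45 _ _ hw)
  have e2 : c.x5 b * c.x5 (z / a) = c.x5 (z / a) * c.x5 b := by
    rw [← c.x5_add, ← c.x5_add, add_comm]
  have e3 : c.x6 u * c.x5 (z / a) = c.x5 (z / a) * c.x6 u := (comm_of_kk (c.par.rel.c56 _ _ hu)).symm
  have hs : c.x4 w * (c.x5 b * c.x6 u) * c.x5 (z / a) = c.x5 (z / a) * (c.x4 w * (c.x5 b * c.x6 u)) :=
    Commute.mul_left (show Commute (c.x4 w) (c.x5 (z / a)) from e1)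
      (Commute.mul_left (show Commute (c.x5 b) (c.x5 (z / a)) from e2) (show Commute (c.x6 u) (c.x5 (z / a)) from e3))
  have h3 := cm_mid (p := 1) (m := c.x3 a) (s := c.x4 w * (c.x5 b * c.x6 u)) (y := c.x5 (z / a))
    (w := c.x4 z) (by rw [one_mul, mul_one]) hs hm (by rw [one_mul, mul_one])
  unfold el
  rw [c.x2_zero, one_mul]
  rw [one_mul] at h3
  exact h3

/-- `t ≠ 0` -/
theorem special_t [CharP E 2] {t a w b u z : E} (ht : σ t = t) (hw : σ w = w) (hu : σ u = u) (hz : σ z = z)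
    (ht0 : t ≠ 0) :
    ∃ y ∈ Sg c.X {2, 3, 4, 5, 6}, el c t a w b u * y * (el c t a w b u)⁻¹ * y⁻¹ = c.x4 z := by
  have hf : σ (z / t) = z / t := by rw [map_div₀, hz, ht]
  refine ⟨c.x6 (z / t), q6 c hf, ?_⟩
  have hm : c.x2 t * c.x6 (z / t) * (c.x2 t)⁻¹ * (c.x6 (z / t))⁻¹ = c.x4 z := by
    rw [cm26 c ht hf, mul_div_cancel₀ _ ht0]
  have e0 : c.x3 a * c.x6 (z / t) = c.x6 (z / t) * c.x3 a := comm_of_kk (c.par.rel.c36 _ _ hf)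
  have e1 : c.x4 w * c.x6 (z / t) = c.x6 (z / t) * c.x4 w := comm_of_kk (c.par.rel.c46 _ _ hw hf)
  have e2 : c.x5 b * c.x6 (z / t) = c.x6 (z / t) * c.x5 b := comm_of_kk (c.par.rel.c56 _ _ hf)
  have e3 : c.x6 u * c.x6 (z / t) = c.x6 (z / t) * c.x6 u := by
    rw [← c.x6_add hu hf, ← c.x6_add hf hu, add_comm]
  have hs : c.x3 a * (c.x4 w * (c.x5 b * c.x6 u)) * c.x6 (z / t) =
      c.x6 (z / t) * (c.x3 a * (c.x4 w * (c.x5 b * c.x6 u))) :=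
    Commute.mul_left (show Commute (c.x3 a) (c.x6 (z / t)) from e0)
      (Commute.mul_left (show Commute (c.x4 w) (c.x6 (z / t)) from e1)
        (Commute.mul_left (show Commute (c.x5 b) (c.x6 (z / t)) from e2)
          (show Commute (c.x6 u) (c.x6 (z / t)) from e3)))
  have h3 := cm_mid (p := 1) (m := c.x2 t) (s := c.x3 a * (c.x4 w * (c.x5 b * c.x6 u))) (y := c.x6 (z / t))
    (w := c.x4 z) (by rw [one_mul, mul_one]) hs hm (by rw [one_mul, mul_one])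
  unfold el
  rw [one_mul] at h3
  exact h3

/-- **`Q` is special.** -/
theorem special [CharP E 2] {x : L} (hx : x ∈ Sg c.X {2, 3, 4, 5, 6}) (hx4 : x ∉ c.X 4) {z : L} (hz : z ∈ c.X 4) :
    ∃ y ∈ Sg c.X {2, 3, 4, 5, 6}, x * y * x⁻¹ * y⁻¹ = z := by
  obtain ⟨z, hzf, rfl⟩ := (c.par.mem4 _).1 hz
  obtain ⟨t, a, w, b, u, ht, hw, hu, rfl⟩ := exists_el c hx
  by_cases ht0 : t = 0
  · subst ht0
    by_cases ha0 : a = 0
    · subst ha0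
      by_cases hb0 : b = 0
      · subst hb0
        by_cases hu0 : u = 0
        · subst hu0
          exfalso
          apply hx4
          unfold el
          rw [c.x2_zero, c.x3_zero, c.x5_zero, c.x6_zero, one_mul, one_mul, mul_one, mul_one]
          exact c.mem4 hw
        · exact special_u c hw hu hzf hu0
      · exact special_b c hw hu hzf hb0
    · exact special_a c hw hu hzf ha0
  · exact special_t c ht hw hu hzf ht0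

theorem sp [CharP E 2] : H255.IFK.Sp (c.X 4) (c.X 4) (Sg c.X {2, 3, 4, 5, 6}) where
  le := le_rfl
  le' := X4_le c
  central := fun _ hw _ hx => central c hx hw
  comm_mem := fun _ hx _ hy => cm_mem c hx hy
  special := fun _ hx hx4 _ hz => special c hx hx4 hz

end Cfsg.Agent.H751.HexQ
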