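import Cfsg.Agent.H751.IF.HexR

/-!
# S5719, `G₂` and `³D₄` in characteristic two: classes of root elements (helper751)
-/

set_option autoImplicit false
set_option linter.unusedSectionVars false
set_option linter.unusedSimpArgs false

namespace Cfsg.Agent.H751.HexQ

open Subgroup Cfsg.Agent.SplitTwo Cfsg.Agent.TitsThree.RankTwoZ Cfsg.Agent.Lib.SL2Mat Cfsg.Agent.Cit.HexBase
open scoped commutatorElement

variable {E : Type*} [Field E] {σ : E ≃+* E} {L : Type*} [Group L] (c : HexGrp σ L)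

/-- rotation by `2 r` -/
def rt (r : ℕ) : L := (c.n1 * c.n6) ^ r

theorem rt_mem {r : ℕ} {k j : ZMod (2 * 6)} (h : k + 2 * (r : ZMod (2 * 6)) = j) {x : L} (hx : x ∈ c.X k) :
    rt c r * x * (rt c r)⁻¹ ∈ c.X j := HexGrp.maps_mem (c.maps_rot r) hx h

theorem rt_mem' {r : ℕ} {k j : ZMod (2 * 6)} (h : k + 2 * (r : ZMod (2 * 6)) = j) {x : L} (hx : x ∈ c.X j) :
    (rt c r)⁻¹ * x * rt c r ∈ c.X k := by
  have h1 := (c.maps_rot r k ((rt c r)⁻¹ * x * rt c r)).1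
  apply h1
  show rt c r * ((rt c r)⁻¹ * x * rt c r) * (rt c r)⁻¹ ∈ _
  rw [show rt c r * ((rt c r)⁻¹ * x * rt c r) * (rt c r)⁻¹ = x by group]
  show x ∈ c.X (k + 2 * (r : ZMod (2 * 6)))
  rw [h]
  exact hx

/-! ### Orders -/

theorem ord6 [CharP E 2] {x : L} (hx : x ∈ c.X 6) (h1 : x ≠ 1) : orderOf x = 2 := by
  obtain ⟨a, ha, rfl⟩ := (c.par.mem6 _).1 hx
  refine orderOf_eq_prime ?_ h1
  rw [pow_two, ← c.x6_add ha ha, CharTwo.add_self_eq_zero, c.x6_zero]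

theorem orderOf_cj {G : Type*} [Group G] (g x : G) : orderOf (g * x * g⁻¹) = orderOf x := by
  have := orderOf_injective (MulAut.conj g).toMonoidHom (MulAut.conj g).injective x
  exact this

/-! ### Conjugacy of the elements of even root groups -/

theorem isConj6 [CharP E 2] [Finite E] {x y : L} (hx : x ∈ c.X 6) (hy : y ∈ c.X 6) (hx1 : x ≠ 1) (hy1 : y ≠ 1) :
    IsConj x y := by
  obtain ⟨a, ha, rfl⟩ := (c.par.mem6 _).1 hx
  obtain ⟨b, hb, rfl⟩ := (c.par.mem6 _).1 hy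
  have ha0 : a ≠ 0 := by
    rintro rfl
    exact hx1 c.x6_zero
  have hb0 : b ≠ 0 := by
    rintro rfl
    exact hy1 c.x6_zero
  have hf : b / a ∈ fx σ := by
    rw [mem_fx, map_div₀, ha, hb]
  obtain ⟨s, hs⟩ : ∃ s : ↥(fx σ), s ^ 2 = ⟨b / a, hf⟩ := by
    have h2 : CharP ↥(fx σ) 2 := inferInstance
    obtain ⟨s, hs⟩ := (FiniteField.isSquare_of_char_two (ringChar.eq_iff.2 h2) (⟨b / a, hf⟩ : ↥(fx σ)))
    exact ⟨s, by rw [pow_two, hs]⟩
  have hs0 : s ≠ 0 := by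
    rintro rfl
    rw [zero_pow two_ne_zero] at hs
    have := congrArg Subtype.val hs
    change (0 : E) = b / a at this
    exact (div_ne_zero hb0 ha0) this.symm
  have h3 := (c.act_a s hs0).a6 a ha
  have h4 : (s : E) ^ 2 = b / a := congrArg Subtype.val hs
  rw [h4, div_mul_cancel₀ _ ha0] at h3
  exact isConj_iff.2 ⟨_, h3⟩

theorem evens (k : ZMod (2 * 6)) (hk : k ∈ ({0, 2, 4, 6, 8, 10} : Finset (ZMod (2 * 6)))) :
    ∃ r : ℕ, 6 + 2 * (r : ZMod (2 * 6)) = k := by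
  have : ∀ k : ZMod (2 * 6), k ∈ ({0, 2, 4, 6, 8, 10} : Finset (ZMod (2 * 6))) →
      ∃ r : Fin 6, 6 + 2 * ((r.val : ℕ) : ZMod (2 * 6)) = k := by decide +kernel
  obtain ⟨r, hr⟩ := this k hk
  exact ⟨r.val, hr⟩

/-- an even root element is conjugate to a given `x ∈ X 6` -/
theorem isConj_even [CharP E 2] [Finite E] {x y : L} {k : ZMod (2 * 6)}
    (hk : k ∈ ({0, 2, 4, 6, 8, 10} : Finset (ZMod (2 * 6)))) (hx : x ∈ c.X 6) (hx1 : x ≠ 1) (hy : y ∈ c.X k)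
    (hy1 : y ≠ 1) : IsConj x y := by
  obtain ⟨r, hr⟩ := evens k hk
  have h1 := rt_mem' c hr hy
  have h2 : (rt c r)⁻¹ * y * rt c r ≠ 1 := by
    intro h
    apply hy1
    have : y = rt c r * ((rt c r)⁻¹ * y * rt c r) * (rt c r)⁻¹ := by group
    rw [this, h, mul_one, mul_inv_cancel]
  refine (isConj6 c hx h1 hx1 h2).trans (isConj_iff.2 ⟨rt c r, ?_⟩)
  group

theorem isConj_even' [CharP E 2] [Finite E] {x y : L} {k j : ZMod (2 * 6)}
    (hk : k ∈ ({0, 2, 4, 6, 8, 10} : Finset (ZMod (2 * 6)))) (hj : j ∈ ({0, 2, 4, 6, 8, 10} : Finset (ZMod (2 * 6))))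
    (hx : x ∈ c.X k) (hx1 : x ≠ 1) (hy : y ∈ c.X j)
    (hy1 : y ≠ 1) : IsConj x y := by
  have h6 : c.x6 1 ≠ 1 := by
    intro h
    rw [← c.x6_zero] at h
    exact one_ne_zero (c.x6_inj (map_one σ) (map_zero σ) h)
  exact (isConj_even c hk (c.mem6 (map_one σ)) h6 hx hx1).symm.trans (isConj_even c hj (c.mem6 (map_one σ)) h6 hy hy1)

/-! ### Centralisers of the elements of `X 4` -/

theorem card_centralizer4 [CharP E 2] [Finite E] [Finite L] {t : L} (ht : t ∈ c.X 4) :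
    Nat.card ↥(fx σ) ^ 3 * Nat.card E ^ 3 * (Nat.card E ^ 2 - 1) ≤ Nat.card (centralizer ({t} : Set L)) := by
  have := Fintype.ofFinite E
  have h1 : Nat.card (SL2 E) = Nat.card E * (Nat.card E ^ 2 - 1) := by
    have := ClassicalGeometry.PSL2Basic.card_SL2 (F := E)
    rw [this, Nat.card_eq_fintype_card]
  have h2 : Nat.card (Sg c.X {2, 3, 4, 5, 6}) * Nat.card (SL2 E) ≤ Nat.card (centralizer ({t} : Set L)) := by
    rw [← Nat.card_prod]
    refine Nat.card_le_card_of_injective (fun p : Sg c.X {2, 3, 4, 5, 6} × SL2 E =>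
      (⟨(p.1 : L) * c.pb p.2, ?_⟩ : centralizer ({t} : Set L))) ?_
    · refine mul_mem ?_ ?_
      · rw [Subgroup.mem_centralizer_singleton_iff]
        exact central c p.1.2 ht
      · rw [Subgroup.mem_centralizer_singleton_iff]
        exact comm_pb c p.2 ht
    · rintro ⟨u, w⟩ ⟨u', w'⟩ e
      have e1 : (u : L) * c.pb w = u' * c.pb w' := congrArg Subtype.val e
      have e2 : (u' : L)⁻¹ * u = c.pb (w' * w⁻¹) := by
        rw [map_mul, map_inv]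
        calc (u' : L)⁻¹ * u = (u' : L)⁻¹ * (u * c.pb w) * (c.pb w)⁻¹ := by group
          _ = (u' : L)⁻¹ * (u' * c.pb w') * (c.pb w)⁻¹ := by rw [e1]
          _ = _ := by group
      have e3 := pb_Q c (mul_mem (inv_mem u'.2) u.2) e2
      have e4 : w' = w := mul_inv_eq_one.1 e3
      subst e4
      exact Prod.ext (Subtype.ext (mul_right_cancel e1)) rfl
  rw [card_Q, h1] at h2
  calc _ = Nat.card ↥(fx σ) * (Nat.card ↥(fx σ) * Nat.card E) ^ 2 * (Nat.card E * (Nat.card E ^ 2 - 1)) := by ring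
    _ ≤ _ := h2

/-- the class of `t ∈ X k`, `k` even, has at most `Λ` elements -/
theorem index4 [CharP E 2] [Finite E] [Finite L] {Λ : ℕ}
    (hL : Nat.card L ≤ Nat.card ↥(fx σ) ^ 3 * Nat.card E ^ 3 * (Nat.card E ^ 2 - 1) * Λ) {t : L} (ht : t ∈ c.X 4) :
    (centralizer ({t} : Set L)).index ≤ Λ := by
  have h1 := card_centralizer4 c ht
  have h2 := (centralizer ({t} : Set L)).card_mul_index
  have h3 : 0 < Nat.card ↥(fx σ) ^ 3 * Nat.card E ^ 3 * (Nat.card E ^ 2 - 1) := by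
    have h4 : 1 < Nat.card E := Finite.one_lt_card
    have h5 : 0 < Nat.card ↥(fx σ) := Nat.card_pos
    have h6 : 1 < Nat.card E ^ 2 := Nat.one_lt_pow two_ne_zero h4
    have h7 : 0 < Nat.card E ^ 2 - 1 := by omega
    positivity
  refine Nat.le_of_mul_le_mul_left ?_ h3
  calc _ ≤ Nat.card (centralizer ({t} : Set L)) * (centralizer ({t} : Set L)).index := Nat.mul_le_mul_right _ h1
    _ = Nat.card L := h2
    _ ≤ _ := hL

theorem index_even [CharP E 2] [Finite E] [Finite L] {Λ : ℕ}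
    (hL : Nat.card L ≤ Nat.card ↥(fx σ) ^ 3 * Nat.card E ^ 3 * (Nat.card E ^ 2 - 1) * Λ) {t : L} {k : ZMod (2 * 6)}
    (hk : k ∈ ({0, 2, 4, 6, 8, 10} : Finset (ZMod (2 * 6)))) (ht : t ∈ c.X k) (ht1 : t ≠ 1) :
    (centralizer ({t} : Set L)).index ≤ Λ := by
  have h4 : c.x4 1 ≠ 1 := by
    intro h
    rw [← c.x4_zero] at h
    exact one_ne_zero (c.x4_inj (map_one σ) (map_zero σ) h)
  rw [H255.IFK.index_centralizer_conj (isConj_even' c hk (j := 4) (by decide) ht ht1 (c.mem4 (map_one σ)) h4)]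
  exact index4 c hL (c.mem4 (map_one σ))

/-! ### `⟨X 4, …, X 8⟩` and the root group `X 6` -/

theorem comm6 {x y : L} (hx : x ∈ Sg c.X {4, 5, 6, 7, 8}) (hy : y ∈ c.X 6) : x * y = y * x := by
  have h1 : (rt c 5) * x * (rt c 5)⁻¹ ∈ Sg c.X {2, 3, 4, 5, 6} :=
    conj_Sg (c.maps_rot 5) (by decide +kernel) hx
  have h2 : (rt c 5) * y * (rt c 5)⁻¹ ∈ c.X 4 := rt_mem c (by decide) hy
  have h3 := central c h1 h2
  calc x * y = (rt c 5)⁻¹ * ((rt c 5 * x * (rt c 5)⁻¹) * (rt c 5 * y * (rt c 5)⁻¹)) * rt c 5 := by group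
    _ = (rt c 5)⁻¹ * ((rt c 5 * y * (rt c 5)⁻¹) * (rt c 5 * x * (rt c 5)⁻¹)) * rt c 5 := by rw [h3]
    _ = _ := by group

theorem card_Q6 [Finite L] : Nat.card (Sg c.X {4, 5, 6, 7, 8}) =
    Nat.card ↥(fx σ) * (Nat.card ↥(fx σ) * Nat.card E) ^ 2 := by
  rw [← card_Q c]
  refine Nat.card_congr (Equiv.ofBijective (fun x : Sg c.X {4, 5, 6, 7, 8} =>
    (⟨rt c 5 * x * (rt c 5)⁻¹, conj_Sg (c.maps_rot 5) (by decide +kernel) x.2⟩ : Sg c.X {2, 3, 4, 5, 6})) ⟨?_, ?_⟩)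
  · intro x y e
    have : rt c 5 * (x : L) * (rt c 5)⁻¹ = rt c 5 * y * (rt c 5)⁻¹ := congrArg Subtype.val e
    exact Subtype.ext (mul_left_cancel (mul_right_cancel this))
  · rintro ⟨g, hg⟩
    have h1 : rt c 1 * g * (rt c 1)⁻¹ ∈ Sg c.X {4, 5, 6, 7, 8} := conj_Sg (c.maps_rot 1) (by decide +kernel) hg
    have h6 : Maps c.X (rt c 6) id := (c.maps_rot 6).congr fun k => by
      show k + 2 * ((6 : ℕ) : ZMod (2 * 6)) = k
      have : (2 * ((6 : ℕ) : ZMod (2 * 6))) = 0 := by decide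
      rw [this, add_zero]
    have h7 : (rt c 6)⁻¹ * (rt c 1 * g * (rt c 1)⁻¹) * rt c 6 ∈ Sg c.X {4, 5, 6, 7, 8} := by
      have := conj_Sg (h6.inv (g := id) fun _ => rfl) (s := {4, 5, 6, 7, 8}) (t := {4, 5, 6, 7, 8}) (fun k hk => hk) h1
      rwa [inv_inv] at this
    refine ⟨⟨_, h7⟩, Subtype.ext ?_⟩
    show rt c 5 * ((rt c 6)⁻¹ * (rt c 1 * g * (rt c 1)⁻¹) * rt c 6) * (rt c 5)⁻¹ = g
    unfold rt
    group

/-- `X 6` and its opposite -/
theorem opp {x : L} [CharP E 2] [Finite L] (hx : x ∈ Sg c.X {4, 5, 6, 7, 8})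
    (h : x * c.pa (lo 1) = c.pa (lo 1) * x) : x = 1 := by
  refine H255.IFK.opp_centralizer (Q := Sg c.X {4, 5, 6, 7, 8}) (t := c.x6 1) (x := c.pa (lo 1)) (n := c.n6) ?_
    (fun y hy => comm6 c hy (c.mem6 (map_one σ))) (fun y hy hy' => ?_) x hx h
  · have e : c.x6 1 = c.pa (up 1) := (c.pa_up 1).symm
    rw [e, ← map_mul, ← map_mul]
    show c.pa (wm 1 one_ne_zero) = _
    congr 1
    have h2 : (1 : ↥(fx σ)) + 1 = 0 := by
      apply Subtype.ext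
      show (1 : E) + 1 = 0
      exact CharTwo.add_self_eq_zero 1
    have hneg : -(1 : ↥(fx σ)) = 1 := neg_eq_of_add_eq_zero_left h2
    refine ext_ent ?_ ?_ ?_ ?_ <;> simp [ent_mul, h2, hneg]
  · have h1 : c.n6⁻¹ * (c.n6 * y * c.n6⁻¹) * c.n6⁻¹⁻¹ ∈ Sg c.X {10, 11, 0, 1, 2} :=
      conj_Sg (c.maps_n6.inv (g := fun k => 6 - k) fun k => by ring) (by decide +kernel) hy'
    rw [show c.n6⁻¹ * (c.n6 * y * c.n6⁻¹) * c.n6⁻¹⁻¹ = y by group] at h1
    exact c.eq_one_of_sep (s := {4, 5, 6, 7, 8}) (t := {10, 11, 0, 1, 2}) (by decide +kernel) hy h1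

end Cfsg.Agent.H751.HexQ
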