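import Cfsg.Agent.H680.IF.EngA
import Cfsg.Agent.H838.IF.RkOne
import Cfsg.Agent.Lib.Cores
import Cfsg.Agent.OddOrderLocal.ComplAux
import Cfsg.Agent.S0044
import Cfsg.Agent.S0205
import Cfsg.Agent.S0215

/-!
# S5719: the rank one case, general part (helper751)

`exists_moved` : if no two distinct involutions of `A` commute, then the involution `t` of `A` moves `O_r(A)` for some odd
prime `r`.
-/

set_option autoImplicit false
set_option linter.unusedSectionVars false

namespace Cfsg.Agent.H751.Moved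

open Subgroup Cfsg.Agent.H209.Fxy
open scoped commutatorElement

theorem cent_of_fit {G : Type*} [Group G] [Finite G] {N : Subgroup G} (hN : N.Normal) (hodd : Odd (Nat.card N)) {t : G}
    (ht : orderOf t = 2) (hF : ∀ r : ℕ, r.Prime → r ≠ 2 → ∀ y ∈ pCore r G, t * y = y * t) :
    ∀ n ∈ N, t * n = n * t := by
  classical
  have hsol : Group.IsSolvable N := Cfsg.Agent.S0205.result hodd
  have hFN : fittingSubgroup N ≤ (centralizer ({t} : Set G)).comap N.subtype := by
    rw [Cfsg.Agent.Lib.Cores.fittingSubgroup_eq_iSup_pCore]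
    refine iSup_le fun r y hy => ?_
    rw [Subgroup.mem_comap, Subgroup.mem_centralizer_singleton_iff]
    by_cases hr : (r : ℕ) = 2
    · have h1 : IsPGroup 2 (pCore (r : ℕ) N) := by
        rw [hr]
        exact Cfsg.Agent.Lib.Cores.pCore_isPGroup 2
      have h2 : Odd (Nat.card (pCore (r : ℕ) N)) := Odd.of_dvd_nat hodd (Subgroup.card_subgroup_dvd_card _)
      obtain ⟨k, hk⟩ := IsPGroup.iff_card.1 h1
      have h3 : Nat.card (pCore (r : ℕ) N) = 1 := by
        rcases Nat.eq_zero_or_pos k with h4 | h4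
        · rw [hk, h4, pow_zero]
        · exfalso
          rw [hk] at h2
          exact (Nat.not_even_iff_odd.2 h2) ((Nat.even_pow.2 ⟨even_two, h4.ne'⟩))
      have h4 : pCore (r : ℕ) N = ⊥ := Subgroup.card_eq_one.1 h3
      rw [h4, Subgroup.mem_bot] at hy
      rw [hy]
      show (1 : G) * t = t * 1
      rw [one_mul, mul_one]
    · have h1 : (y : G) ∈ pCore (r : ℕ) G := by
        have h2 : (y : G) ∈ (pCore (r : ℕ) N).map N.subtype := ⟨y, hy, rfl⟩
        rw [Cfsg.Agent.Lib.Cores.map_subtype_pCore (r : ℕ) hN] at h2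
        exact h2.2
      exact (hF r r.2 hr y h1).symm
  intro n hn
  have hm : t * n * t⁻¹ * n⁻¹ ∈ N := mul_mem (hN.conj_mem n hn t) (inv_mem hn)
  have h1 : (⟨_, hm⟩ : N) ∈ centralizer (fittingSubgroup N : Set N) := by
    rw [Subgroup.mem_centralizer_iff]
    intro f hf
    apply Subtype.ext
    show (f : G) * (t * n * t⁻¹ * n⁻¹) = (t * n * t⁻¹ * n⁻¹) * f
    have hf1 : (f : G) * t = t * f := by
      have := hFN hf
      rw [Subgroup.mem_comap, Subgroup.mem_centralizer_singleton_iff] at this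
      exact this
    have hnf : (⟨n, hn⟩ : N)⁻¹ * f * (⟨n, hn⟩ : N) ∈ fittingSubgroup N := by
      have := (Cfsg.Agent.Lib.Cores.fittingSubgroup_normal (G := N)).conj_mem f hf (⟨n, hn⟩ : N)⁻¹
      rwa [inv_inv] at this
    have hf2 : (n⁻¹ * (f : G) * n) * t = t * (n⁻¹ * f * n) := by
      have := hFN hnf
      rw [Subgroup.mem_comap, Subgroup.mem_centralizer_singleton_iff] at this
      exact this
    have hf3 : t⁻¹ * (n⁻¹ * (f : G) * n) = (n⁻¹ * f * n) * t⁻¹ := by
      rw [inv_mul_eq_iff_eq_mul, ← mul_assoc, ← hf2, mul_inv_cancel_right]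
    symm
    calc (t * n * t⁻¹ * n⁻¹) * (f : G) = t * n * (t⁻¹ * (n⁻¹ * f * n)) * n⁻¹ := by group
      _ = t * n * ((n⁻¹ * f * n) * t⁻¹) * n⁻¹ := by rw [hf3]
      _ = (t * f) * n * t⁻¹ * n⁻¹ := by group
      _ = (f * t) * n * t⁻¹ * n⁻¹ := by rw [hf1]
      _ = _ := by group
  have h2 := hFN (Cfsg.Agent.S0044.result h1)
  rw [Subgroup.mem_comap, Subgroup.mem_centralizer_singleton_iff] at h2
  have h3 : Commute t ⁅t, n⁆ := by
    rw [commutatorElement_def]
    exact h2.symm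
  have h4 : (orderOf t).Coprime (orderOf ⁅t, n⁆) := by
    rw [ht, commutatorElement_def, Nat.coprime_two_left]
    have h5 : orderOf (t * n * t⁻¹ * n⁻¹) ∣ Nat.card N := by
      have := orderOf_dvd_natCard (⟨_, hm⟩ : N)
      rwa [← Subgroup.orderOf_coe] at this
    exact Odd.of_dvd_nat hodd h5
  exact Cfsg.Agent.OddOrderLocal.ComplAux.commute_of_commute_commutator h3 h4

/-- **The involution moves some `O_r(A)`.** -/
theorem exists_moved {T : Type*} [Group T] [Finite T] [IsSimpleGroup T] {A : Subgroup T} {Γ : Subgroup (MulAut T)}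
    (h : IF A Γ) {t : T} (ht : t ∈ A) (ht2 : orderOf t = 2)
    (hno : ∀ s ∈ A, ∀ t ∈ A, orderOf s = 2 → orderOf t = 2 → s * t = t * s → s = t)
    (hex : ∃ s : T, s ≠ t ∧ orderOf s = 2 ∧ s * t = t * s) :
    ∃ r : ℕ, r.Prime ∧ r ≠ 2 ∧ ∃ y ∈ pCore r A, (⟨t, ht⟩ : A) * y ≠ y * ⟨t, ht⟩ := by
  classical
  by_contra hcon
  push Not at hcon
  have ht2' : t * t = 1 := by rw [← pow_two, ← ht2, pow_orderOf_eq_one]
  let tA : A := ⟨t, ht⟩
  have htA2 : orderOf tA = 2 := by rw [← Subgroup.orderOf_coe]; exact ht2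
  have hz : IsPGroup 2 (zpowers tA) := by
    apply IsPGroup.of_card (n := 1)
    rw [Nat.card_zpowers, htA2, pow_one]
  obtain ⟨P, hP⟩ := hz.exists_le_sylow
  have htP : tA ∈ (P : Subgroup A) := hP (mem_zpowers tA)
  have hPnt : Nontrivial (P : Subgroup A) := ⟨⟨⟨tA, htP⟩, 1, fun h1 => by
    have h2 : tA = 1 := congrArg Subtype.val h1
    rw [h2, orderOf_one] at htA2
    omega⟩⟩
  have hcn : Nontrivial (center (P : Subgroup A)) := P.isPGroup'.center_nontrivial
  have huniq : ∀ s : A, s ∈ (P : Subgroup A) → orderOf s = 2 → s = tA := by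
    have hc2 : 2 ∣ Nat.card (center (P : Subgroup A)) := by
      have h3 : IsPGroup 2 (center (P : Subgroup A)) := P.isPGroup'.to_subgroup _
      obtain ⟨n, hn⟩ := IsPGroup.iff_card.1 h3
      have h4 : 1 < Nat.card (center (P : Subgroup A)) := Finite.one_lt_card
      rcases Nat.eq_zero_or_pos n with rfl | h5
      · rw [hn, pow_zero] at h4; omega
      · rw [hn]; exact dvd_pow_self 2 h5.ne'
    obtain ⟨z, hz2⟩ := exists_prime_orderOf_dvd_card' 2 hc2
    have hz3 : orderOf (z.1.1 : A) = 2 := by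
      rw [Subgroup.orderOf_coe, Subgroup.orderOf_coe]; exact hz2
    have key : ∀ s : A, s ∈ (P : Subgroup A) → orderOf s = 2 → s = z.1.1 := by
      intro s hs hs2
      have hcomm : s * z.1.1 = z.1.1 * s := by
        have h6 := mem_center_iff.1 z.2 ⟨s, hs⟩
        exact congrArg Subtype.val h6
      have h7 := hno s s.2 z.1.1 (z.1.1).2 (by rw [Subgroup.orderOf_coe]; exact hs2)
        (by rw [Subgroup.orderOf_coe]; exact hz3) (congrArg Subtype.val hcomm)
      exact Subtype.ext h7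
    intro s hs hs2
    rw [key s hs hs2, key tA htP htA2]
  obtain ⟨N, hN, hNodd, hNc⟩ := Cfsg.Agent.S0215.result P tA htA2 htP (fun g hg => by
    apply huniq _ hg
    have h1 : g * tA * g⁻¹ = MulAut.conj g tA := rfl
    rw [h1, MulEquiv.orderOf_eq]
    exact htA2)
  have htc : ∀ n ∈ N, tA * n = n * tA := cent_of_fit hN hNodd htA2 hcon
  have htcent : ∀ a : A, tA * a = a * tA := by
    intro a
    have h1 := hNc a
    set m := tA * a * tA⁻¹ * a⁻¹ with hm
    have htt : tA * tA = 1 := Subtype.ext ht2'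
    have htinv : tA⁻¹ = tA := inv_eq_of_mul_eq_one_left htt
    have h2 : a * tA * a⁻¹ = tA * m := by
      rw [hm, htinv]
      rw [show tA * (tA * a * tA * a⁻¹) = (tA * tA) * (a * tA * a⁻¹) by group, htt, one_mul]
    have h3 : (a * tA * a⁻¹) * (a * tA * a⁻¹) = 1 := by
      rw [show (a * tA * a⁻¹) * (a * tA * a⁻¹) = a * (tA * tA) * a⁻¹ by group, htt, mul_one, mul_inv_cancel]
    rw [h2] at h3
    have h4 : m * m = 1 := by
      have h5 : tA * m * (tA * m) = (tA * tA) * (m * m) := by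
        rw [show tA * m * (tA * m) = tA * (m * tA) * m by group, ← htc m h1]
        group
      rw [h5, htt, one_mul] at h3
      exact h3
    have h6 : orderOf m ∣ 2 := orderOf_dvd_of_pow_eq_one (by rw [pow_two]; exact h4)
    have h7 : orderOf m ∣ Nat.card N := by
      have := orderOf_dvd_natCard (⟨m, h1⟩ : N)
      rwa [← Subgroup.orderOf_coe] at this
    have h8 : orderOf m = 1 := by
      rcases (Nat.dvd_prime Nat.prime_two).1 h6 with h9 | h9
      · exact h9
      · exfalso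
        rw [h9] at h7
        exact (Nat.not_even_iff_odd.2 hNodd) (even_iff_two_dvd.2 h7)
    rw [orderOf_eq_one_iff] at h8
    rw [h8, mul_one] at h2
    exact (mul_inv_eq_iff_eq_mul.1 h2).symm
  obtain ⟨s, hst, hs2, hsc⟩ := hex
  have hsA : s ∈ A := by
    apply Cfsg.Agent.H680.Fxy.IF.norm h (K := zpowers t) ?_ ?_ ?_ (x := s) ?_
    · rw [zpowers_le]; exact ht
    · intro σ hσ k hk
      have h1 : σ t = t := by
        have h2 : σ t ∈ A := (h.inv σ hσ t).2 ht
        have h3 : orderOf (σ t) = 2 := by rw [MulEquiv.orderOf_eq]; exact ht2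
        exact hno _ h2 _ ht h3 ht2 (congrArg Subtype.val (htcent ⟨σ t, h2⟩)).symm
      obtain ⟨i, rfl⟩ := mem_zpowers_iff.1 hk
      rw [map_zpow, h1]
      exact zpow_mem (mem_zpowers t) i
    · intro h1
      rw [zpowers_eq_bot] at h1
      rw [h1, orderOf_one] at ht2
      omega
    · intro k hk
      obtain ⟨i, rfl⟩ := mem_zpowers_iff.1 hk
      have h1 : s * t * s⁻¹ = t := by rw [hsc, mul_inv_cancel_right]
      rw [← conj_zpow, h1]
      exact zpow_mem (mem_zpowers t) i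
  exact hst (hno s hsA t ht hs2 ht2 hsc)

/-- **The normaliser of the radical.** -/
theorem norm_core {T : Type*} [Group T] [Finite T] [IsSimpleGroup T] {A : Subgroup T} {Γ : Subgroup (MulAut T)}
    (h : IF A Γ) (r : ℕ) [Fact r.Prime] {R : Subgroup T} (hRA : R ≤ A) (hRp : IsPGroup r R)
    (hRn : ∀ a ∈ A, ∀ x ∈ R, a * x * a⁻¹ ∈ R) (hne : R ≠ ⊥) :
    ∃ V : Subgroup T, IsPGroup r V ∧ V ≠ ⊥ ∧ normalizer (V : Set T) ≤ A ∧
      ∀ P : Subgroup T, IsPGroup r P → P ≤ normalizer (V : Set T) →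
        normalizer (V : Set T) ≤ normalizer (P : Set T) → P ≤ V := by
  obtain ⟨V, hVA, hVp, hVn, hVmax⟩ := Cfsg.Agent.H838.IF.exists_core r A
  have hVne : V ≠ ⊥ := by
    rintro rfl
    exact hne (le_bot_iff.1 (hVmax R hRA hRp hRn))
  have hVinv : ∀ τ ∈ Γ, ∀ k ∈ V, τ k ∈ V := by
    intro τ hτ k hk
    have h1 : V.map τ.toMonoidHom ≤ V := by
      apply hVmax
      · rintro _ ⟨x, hx, rfl⟩
        exact (h.inv τ hτ x).2 (hVA hx)
      · exact hVp.map _
      · rintro a ha _ ⟨x, hx, rfl⟩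
        have h2 : τ⁻¹ a ∈ A := (h.inv _ (Γ.inv_mem hτ) a).2 ha
        refine ⟨τ⁻¹ a * x * (τ⁻¹ a)⁻¹, hVn _ h2 x hx, ?_⟩
        change τ (τ⁻¹ a * x * (τ⁻¹ a)⁻¹) = a * τ x * a⁻¹
        rw [map_mul, map_mul, map_inv, MulAut.apply_inv_self]
    exact h1 ⟨k, hk, rfl⟩
  have hN : normalizer (V : Set T) ≤ A := by
    intro x hx
    exact Cfsg.Agent.H680.Fxy.IF.norm h hVA hVinv hVne (fun k hk => (Subgroup.mem_normalizer_iff.1 hx k).1 hk)
  refine ⟨V, hVp, hVne, hN, fun P hPp hPV hVP => ?_⟩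
  refine hVmax P (hPV.trans hN) hPp fun a ha k hk => ?_
  have h3 : a ∈ normalizer (V : Set T) := by
    rw [Subgroup.mem_normalizer_iff]
    intro v
    constructor
    · exact hVn a ha v
    · intro hv
      have h4 := hVn a⁻¹ (A.inv_mem ha) _ hv
      rwa [inv_inv, show a⁻¹ * (a * v * a⁻¹) * a = v by group] at h4
  exact (Subgroup.mem_normalizer_iff.1 (hVP h3) k).1 hk

/-- **The rank one case**: the involution moves a normal `r`-subgroup `R` of `A`, and `A` contains the normaliser of a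
radical `r`-subgroup. -/
theorem rk_one' {T : Type*} [Group T] [Finite T] [IsSimpleGroup T] {A : Subgroup T} {Γ : Subgroup (MulAut T)}
    (h : IF A Γ) {t : T} (ht : t ∈ A) (ht2 : orderOf t = 2)
    (hno : ∀ s ∈ A, ∀ t ∈ A, orderOf s = 2 → orderOf t = 2 → s * t = t * s → s = t)
    (hex : ∃ s : T, s ≠ t ∧ orderOf s = 2 ∧ s * t = t * s) :
    ∃ r : ℕ, r.Prime ∧ r ≠ 2 ∧ ∃ R V : Subgroup T, R ≤ A ∧ IsPGroup r R ∧ (∀ a ∈ A, ∀ x ∈ R, a * x * a⁻¹ ∈ R) ∧
      (∃ y ∈ R, t * y ≠ y * t) ∧ IsPGroup r V ∧ V ≠ ⊥ ∧ normalizer (V : Set T) ≤ A ∧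
      ∀ P : Subgroup T, IsPGroup r P → P ≤ normalizer (V : Set T) →
        normalizer (V : Set T) ≤ normalizer (P : Set T) → P ≤ V := by
  obtain ⟨r, hr, hr2, y, hy, hty⟩ := exists_moved h ht ht2 hno hex
  have hfr : Fact r.Prime := ⟨hr⟩
  have hRA : (pCore r A).map A.subtype ≤ A := by
    rintro _ ⟨x, -, rfl⟩
    exact x.2
  have hRp : IsPGroup r ((pCore r A).map A.subtype) := (Cfsg.Agent.Lib.Cores.pCore_isPGroup r).map _
  have hRn : ∀ a ∈ A, ∀ x ∈ (pCore r A).map A.subtype, a * x * a⁻¹ ∈ (pCore r A).map A.subtype := by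
    rintro a ha _ ⟨x, hx, rfl⟩
    exact ⟨⟨a, ha⟩ * x * (⟨a, ha⟩ : A)⁻¹, (Cfsg.Agent.Lib.Cores.pCore_normal r).conj_mem x hx _, rfl⟩
  have hmov : ∃ y ∈ (pCore r A).map A.subtype, t * y ≠ y * t :=
    ⟨y, ⟨y, hy, rfl⟩, fun h3 => hty (Subtype.ext h3)⟩
  have hne : (pCore r A).map A.subtype ≠ ⊥ := by
    intro h3
    obtain ⟨y, hy, hty⟩ := hmov
    rw [h3, Subgroup.mem_bot] at hy
    rw [hy, mul_one, one_mul] at hty
    exact hty rfl
  obtain ⟨V, h1, h2, h3, h4⟩ := norm_core h r hRA hRp hRn hne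
  exact ⟨r, hr, hr2, _, V, hRA, hRp, hRn, hmov, h1, h2, h3, h4⟩

end Cfsg.Agent.H751.Moved
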