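import Cfsg.Agent.H751.IF.HexKill
import Cfsg.Agent.Cit.HexD4
import Cfsg.Agent.H83.TwDFour
import Cfsg.Agent.OddHalf.LongSL.Tw
import Cfsg.Agent.S1067

/-!
# S5719: `³D₄(q)`, `q` even (helper751)
-/

set_option autoImplicit false
set_option linter.unusedSectionVars false

namespace Cfsg.Agent.H751.TD4Even

open Cfsg.Lie Cfsg.Agent.SplitTwo Cfsg.Agent.Cit.HexBase Cfsg.Agent.ChevalleyStructure
open Cfsg.Agent.Hexagon.TwD4RGD

theorem arith (q : ℕ) (hq : 2 ≤ q) : (q ^ 2 - 1) * (q ^ 8 + q ^ 4 + 1) ≤ q ^ 10 := by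
  obtain ⟨n, hn⟩ : ∃ n, q ^ 2 = n + 1 := ⟨q ^ 2 - 1, by
    have : 0 < q ^ 2 := by positivity
    omega⟩
  have e8 : q ^ 8 = (n + 1) ^ 4 := by rw [← hn]; ring
  have e4 : q ^ 4 = (n + 1) ^ 2 := by rw [← hn]; ring
  have e10 : q ^ 10 = (n + 1) ^ 5 := by rw [← hn]; ring
  rw [hn, e8, e4, e10, Nat.add_sub_cancel]
  nlinarith [Nat.zero_le n, Nat.zero_le (n ^ 2), Nat.zero_le (n ^ 3), Nat.zero_le (n ^ 4)]

theorem xG_eq {K : Type} [Field K] (h : Elts.InList chevD4) (r : ℕ) (t : K) :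
    (Elts.xG h r t : GL chevD4.Idx K) = D4Comm.xG r t := Units.ext rfl

theorem card_fx {K : Type} [Field K] [Fintype K] {q : ℕ} (hq : 2 ≤ q) (hK : Fintype.card K = q ^ 3)
    {σ : K ≃+* K} (hσ : ∀ x, σ x = x ^ q) : Nat.card ↥(fx σ) = q := by
  have h1 := OddHalf.LongSL.Tw.card_fixed hq hK
  have e : Nat.card ↥(fx σ) = Nat.card {x : K // x ^ q = x} :=
    Nat.card_congr (Equiv.subtypeEquivRight fun x => by
      rw [← hσ]
      exact Iff.rfl)
  rw [e]
  exact h1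

/-- **`³D₄(q)`, `q` even.** -/
theorem td4_even (K : Type) [Field K] [Fintype K] (q : ℕ) (hq : IsPrimePow q) (hK : Fintype.card K = q ^ 3)
    (he : Even q) (hs : IsSimpleGroup (twistedD4 K q)) : H209.Fxy.KillE (twistedD4 K q) := by
  have hchar : CharP K 2 := by
    have h1 : Even (Fintype.card K) := by
      rw [hK]
      exact (Nat.even_pow.2 ⟨he, by norm_num⟩)
    have h2 : ringChar K = 2 := by
      by_contra hne
      exact (Nat.not_odd_iff_even.2 h1) (by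
        have := FiniteField.odd_card_of_char_ne_two hne
        exact Nat.odd_iff.2 this)
    exact ringChar.eq_iff.1 h2
  obtain ⟨φ, hφ⟩ := D4Fixed.exists_frob hq hK
  have hb : Function.Bijective φ := by
    rw [Fintype.bijective_iff_injective_and_card]
    exact ⟨RingHom.injective (φ : K →+* K), rfl⟩
  obtain ⟨σ, hσ⟩ : ∃ σ : K ≃+* K, ∀ x, σ x = x ^ q := ⟨RingEquiv.ofBijective φ hb, hφ⟩
  have hq2 : 2 ≤ q := hq.two_le
  have hcf : Nat.card ↥(fx σ) = q := card_fx hq2 hK hσ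
  have hcK : Nat.card K = q ^ 3 := by rw [Nat.card_eq_fintype_card, hK]
  have hcL := Cfsg.Agent.S1067.result hq hK
  have har := arith q hq2
  refine HexQ.killE (Cit.HexD4.d4 hq hK hσ) (Λ := (q ^ 2 - 1) * (q ^ 8 + q ^ 4 + 1)) ?_ ?_ ?_ ?_ ?_
  · rw [hcL, hcf, hcK]
    apply le_of_eq
    have e6 : (q ^ 3) ^ 2 = q ^ 6 := by ring
    rw [e6]
    ring
  · rw [hcf, hcK]
    refine har.trans ?_
    calc q ^ 10 ≤ 16 * q ^ 16 := by
          have : q ^ 10 ≤ q ^ 16 := Nat.pow_le_pow_right (by omega) (by norm_num)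
          omega
      _ = 16 * q * (q ^ 3) ^ 5 := by ring
  · rw [hcf, hcK]
    refine har.trans ?_
    calc q ^ 10 ≤ q ^ 13 := Nat.pow_le_pow_right (by omega) (by norm_num)
      _ = q ^ 7 * (q ^ 3) ^ 2 := by ring
  · rw [hcL, hcf, hcK]
    calc q ^ 12 * (q ^ 2 - 1) * (q ^ 6 - 1) * (q ^ 8 + q ^ 4 + 1)
        = (q ^ 12 * (q ^ 6 - 1)) * ((q ^ 2 - 1) * (q ^ 8 + q ^ 4 + 1)) := by ring
      _ ≤ (q ^ 12 * q ^ 6) * q ^ 10 := Nat.mul_le_mul (Nat.mul_le_mul_left _ (Nat.sub_le _ _)) har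
      _ = (q * q ^ 3) ^ 7 := by ring
  · intro t ht
    have h2 : (t : GL chevD4.Idx K) * t = 1 := by
      have : t ^ 2 = 1 := by rw [← ht]; exact pow_orderOf_eq_one t
      rw [pow_two] at this
      exact congrArg Subtype.val this
    rcases H83.TwDFour.exists_rep hK t.2 h2 with h1 | ⟨R, hR, g, hg, e⟩
    · exfalso
      have : t = 1 := Subtype.ext h1
      rw [this, orderOf_one] at ht
      omega
    · have hcj : IsConj t ((⟨g, hg⟩ : ↥(twistedD4 K q)) * t * (⟨g, hg⟩ : ↥(twistedD4 K q))⁻¹) := isConj_iff.2 ⟨_, rfl⟩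
      have hmem : ∀ r : ℕ, ∀ l : List ℕ, r ∈ l → (Elts.xG Cfsg.Agent.Nodes.RGDTwD4.hp.inList r 1 : GL chevD4.Idx K) ∈
          D4U.RS K l := by
        intro r l hr
        rw [xG_eq]
        exact TwistedU.mem_rspan D4Comm.xG (S := {k | k ∈ l}) hr _
      simp only [List.mem_cons, List.not_mem_nil, or_false] at hR
      rcases hR with rfl | rfl
      · refine ⟨4, _, ?_, hcj⟩
        show _ ∈ X K q 4
        rw [mem_X]
        show g * t * g⁻¹ ∈ _
        rw [e, H83.ChevInv.PX_cons, H83.ChevInv.PX_nil, mul_one]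
        exact hmem 23 _ (by decide +kernel)
      · refine ⟨1, _, ?_, hcj⟩
        show _ ∈ X K q 1
        rw [mem_X]
        show g * t * g⁻¹ ∈ _
        rw [e, H83.ChevInv.PX_cons, H83.ChevInv.PX_cons, H83.ChevInv.PX_cons, H83.ChevInv.PX_nil, mul_one]
        exact mul_mem (hmem 18 _ (by decide +kernel)) (mul_mem (hmem 13 _ (by decide +kernel)) (hmem 12 _ (by decide +kernel)))

end Cfsg.Agent.H751.TD4Even
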