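import Cfsg.Agent.H751.IF.Moved
import Cfsg.Agent.H751.IF.TD4Even
import Cfsg.Agent.Cit.HexInv
import Cfsg.Agent.H565.RY.BtD4

/-!
# S5719: `³D₄(q)`, `q` odd, the case of 2-rank one (helper751)
-/

set_option autoImplicit false
set_option linter.unusedSectionVars false

namespace Cfsg.Agent.H751.TD4RkOne

open Cfsg.Lie Cfsg.Agent.SplitTwo Cfsg.Agent.Cit.HexBase Cfsg.Agent.Lib.SL2Mat
open Subgroup Cfsg.Agent.H209.Fxy

/-- `q ^ 16 < r ^ ((q³ - 1) / 2)` -/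
theorem numer {q r : ℕ} (hq : Odd q) (hq3 : 3 ≤ q) (hr : 3 ≤ r) (h3 : q = 3 → 5 ≤ r) : q ^ 16 < r ^ ((q ^ 3 - 1) / 2) := by
  rcases eq_or_lt_of_le hq3 with h | h
  · subst h
    have h5 := h3 rfl
    calc 3 ^ 16 < 5 ^ 13 := by norm_num
      _ ≤ r ^ 13 := Nat.pow_le_pow_left h5 13
      _ = r ^ ((3 ^ 3 - 1) / 2) := by norm_num
  · have h5 : 5 ≤ q := by
      obtain ⟨k, hk⟩ := hq
      omega
    obtain ⟨k, rfl⟩ : ∃ k, q = 5 + k := ⟨q - 5, by omega⟩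
    have h1 : ∀ k : ℕ, 5 + k ≤ 3 ^ (2 + k) := by
      intro k
      induction k with
      | zero => norm_num
      | succ k ih =>
        calc 5 + (k + 1) ≤ 3 * (5 + k) := by omega
          _ ≤ 3 * 3 ^ (2 + k) := Nat.mul_le_mul_left _ ih
          _ = 3 ^ (2 + (k + 1)) := by ring
    have h2 : 16 * (2 + k) < ((5 + k) ^ 3 - 1) / 2 := by
      have h4 : 2 * (16 * (2 + k) + 1) + 1 ≤ (5 + k) ^ 3 := by nlinarith [Nat.zero_le k, Nat.zero_le (k ^ 2), Nat.zero_le (k ^ 3)]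
      omega
    calc (5 + k) ^ 16 ≤ (3 ^ (2 + k)) ^ 16 := Nat.pow_le_pow_left (h1 k) 16
      _ = 3 ^ (16 * (2 + k)) := by rw [← pow_mul]; ring_nf
      _ < 3 ^ (((5 + k) ^ 3 - 1) / 2) := Nat.pow_lt_pow_right (by norm_num) h2
      _ ≤ r ^ (((5 + k) ^ 3 - 1) / 2) := Nat.pow_le_pow_left hr _

/-- an `r`-subgroup of `³D₄(q)`, `r ∤ q`, has order at most `q ^ 16` -/
theorem card_le {q r : ℕ} (hq : 2 ≤ q) (hr : r.Prime) (hrq : ¬ r ∣ q) {m : ℕ}
    (hm : r ^ m ∣ q ^ 12 * (q ^ 2 - 1) * (q ^ 6 - 1) * (q ^ 8 + q ^ 4 + 1)) : r ^ m ≤ q ^ 16 := by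
  have h1 : (r ^ m).Coprime (q ^ 12) := Nat.Coprime.pow _ _ ((Nat.Prime.coprime_iff_not_dvd hr).2 hrq)
  have h2 : r ^ m ∣ (q ^ 6 - 1) * ((q ^ 2 - 1) * (q ^ 8 + q ^ 4 + 1)) := by
    apply h1.dvd_of_dvd_mul_left
    have e : q ^ 12 * ((q ^ 6 - 1) * ((q ^ 2 - 1) * (q ^ 8 + q ^ 4 + 1))) =
        q ^ 12 * (q ^ 2 - 1) * (q ^ 6 - 1) * (q ^ 8 + q ^ 4 + 1) := by ring
    rw [e]
    exact hm
  have h3 : 0 < (q ^ 6 - 1) * ((q ^ 2 - 1) * (q ^ 8 + q ^ 4 + 1)) := by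
    have h4 : 1 < q ^ 6 := Nat.one_lt_pow (by norm_num) (by omega)
    have h5 : 1 < q ^ 2 := Nat.one_lt_pow (by norm_num) (by omega)
    have h6 : 0 < q ^ 6 - 1 := by omega
    have h7 : 0 < q ^ 2 - 1 := by omega
    positivity
  calc r ^ m ≤ (q ^ 6 - 1) * ((q ^ 2 - 1) * (q ^ 8 + q ^ 4 + 1)) := Nat.le_of_dvd h3 h2
    _ ≤ q ^ 6 * q ^ 10 := Nat.mul_le_mul (Nat.sub_le _ _) (TD4Even.arith q hq)
    _ = q ^ 16 := by ring

theorem dg_neg_one {F : Type*} [Field F] (h : (-1 : F) ≠ 0) : (dg (-1) h : SL2 F) = -1 := by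
  apply Subtype.ext
  ext i j
  fin_cases i <;> fin_cases j
  · show ent (dg (-1) h) 0 0 = _
    simp
  · show ent (dg (-1) h) 0 1 = _
    simp
  · show ent (dg (-1) h) 1 0 = _
    simp
  · show ent (dg (-1) h) 1 1 = _
    simp

/-- the cross characteristic bound (helper446) -/
def Cross : Prop := ∀ {r : ℕ}, r.Prime → ∀ {F : Type} [Field F] [Fintype F], Odd (Fintype.card F) →
  3 < Fintype.card F → (r : F) ≠ 0 → ∀ {G : Type} [Group G] [Finite G] (φ : SL2 F →* G) {R : Subgroup G},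
  IsPGroup r R → (∀ x, ∀ y ∈ R, φ x * y * (φ x)⁻¹ ∈ R) → (∃ y ∈ R, φ (-1) * y ≠ y * φ (-1)) →
  r ^ ((Fintype.card F - 1) / 2) ≤ Nat.card R

/-- **2-rank one.** -/
theorem rkOne' (hX : Cross) {K : Type} [Field K] [Fintype K] {q : ℕ} (hq : IsPrimePow q) (hodd : Odd q)
    (hK : Fintype.card K = q ^ 3) (hs : IsSimpleGroup ↥(twistedD4 K q)) {A : Subgroup ↥(twistedD4 K q)}
    {Γ : Subgroup (MulAut ↥(twistedD4 K q))} (h : IF A Γ) {σ : K ≃+* K}
    (c : HexGrp σ ↥(twistedD4 K q))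
    (hk : ∀ g : ↥(twistedD4 K q), g * c.z * g⁻¹ ∈ A → ∀ x, g * c.pb x * g⁻¹ ∈ A)
    (h1 : ∀ s ∈ A, ∀ t ∈ A, orderOf s = 2 → orderOf t = 2 → s * t = t * s → s = t)
    (hev : ∃ t ∈ A, orderOf t = 2) : False := by
  obtain ⟨t, ht, ht2⟩ := hev
  have hKodd : Odd (Fintype.card K) := by rw [hK]; exact hodd.pow
  have h2 : (2 : K) ≠ 0 := by
    intro h0
    have hch : ringChar K = 2 := by
      have h3 : ringChar K ∣ 2 := ringChar.dvd (by exact_mod_cast h0)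
      have h4 : ringChar K ≠ 1 := CharP.ringChar_ne_one
      exact ((Nat.dvd_prime Nat.prime_two).1 h3).resolve_left h4
    have h5 := FiniteField.even_card_of_char_two hch
    exact (Nat.not_even_iff_odd.2 hKodd) (Nat.even_iff.2 h5)
  have hq3 : 3 ≤ q := by
    obtain ⟨k, hk'⟩ := hodd
    have := hq.two_le
    omega
  -- `t` is conjugate to `c.z`
  have htt : t * t = 1 := by rw [← pow_two, ← ht2, pow_orderOf_eq_one]
  have ht1 : t ≠ 1 := by
    rintro rfl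
    rw [orderOf_one] at ht2
    omega
  obtain ⟨g, hg⟩ := isConj_iff.1 (c.isConj_z h2 htt ht1)
  have hg' : g⁻¹ * c.z * g = t := by rw [← hg]; group
  have hgz : g⁻¹ * c.z * g⁻¹⁻¹ = t := by rw [inv_inv, hg']
  have hKA : ∀ x, g⁻¹ * c.pb x * g⁻¹⁻¹ ∈ A := hk g⁻¹ (by rw [hgz]; exact ht)
  let φ : SL2 K →* ↥(twistedD4 K q) := (MulAut.conj g⁻¹).toMonoidHom.comp c.pb
  have hφ : ∀ x, φ x = g⁻¹ * c.pb x * g⁻¹⁻¹ := fun x => rfl
  have hφz : φ (-1) = t := by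
    rw [hφ, ← hgz]
    congr 2
    rw [← dg_neg_one (neg_ne_zero.2 one_ne_zero)]
    rfl
  -- a second involution commuting with `t`
  have hex : ∃ s : ↥(twistedD4 K q), s ≠ t ∧ orderOf s = 2 ∧ s * t = t * s := by
    refine ⟨g⁻¹ * c.z0 * g⁻¹⁻¹, ?_, ?_, ?_⟩
    · intro h3
      rw [← hgz] at h3
      exact c.z0_ne_z h2 (mul_left_cancel (mul_right_cancel h3))
    · rw [HexQ.orderOf_cj]
      exact orderOf_eq_prime (by rw [pow_two]; exact c.z0_sq) (c.z0_ne_one h2)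
    · rw [← hgz]
      calc g⁻¹ * c.z0 * g⁻¹⁻¹ * (g⁻¹ * c.z * g⁻¹⁻¹) = g⁻¹ * (c.z0 * c.z) * g⁻¹⁻¹ := by group
        _ = g⁻¹ * (c.z * c.z0) * g⁻¹⁻¹ := by rw [c.z0_z]
        _ = _ := by group
  obtain ⟨r, hr, hr2, R, V, hRA, hRp, hRn, hmov, hVp, hVne, hN, hVmax⟩ := Moved.rk_one' h ht ht2 h1 hex
  have hfr : Fact r.Prime := ⟨hr⟩
  have hcardT := Cfsg.Agent.S1067.result hq hK
  by_cases hrK : (r : K) = 0
  · -- `r = p`
    have hch : CharP K r := by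
      have h3 : ringChar K ∣ r := ringChar.dvd hrK
      have h4 : ringChar K ≠ 1 := CharP.ringChar_ne_one
      have h5 := ((Nat.dvd_prime hr).1 h3).resolve_left h4
      exact ringChar.eq_iff.1 h5
    obtain ⟨s, u, hs2, hu2, hsu, hc, hsN, huN⟩ := Cfsg.Agent.H565.RY.bt_td4_two (r := r) hq hodd hK hVp hVne hVmax
    exact hsu (h1 s (hN hsN) u (hN huN) hs2 hu2 hc)
  · -- `r ≠ p`
    have hK3 : 3 < Fintype.card K := by
      rw [hK]
      calc 3 < 3 ^ 3 := by norm_num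
        _ ≤ q ^ 3 := Nat.pow_le_pow_left hq3 3
    have h3 := hX hr hKodd hK3 hrK φ hRp (fun x y hy => by
      rw [hφ]
      exact hRn _ (hKA x) y hy) (by rw [hφz]; exact hmov)
    rw [hK] at h3
    obtain ⟨m, hm⟩ := IsPGroup.iff_card.1 hRp
    have hrq : ¬ r ∣ q := by
      rintro ⟨k, rfl⟩
      apply hrK
      have h4 : ((Fintype.card K : ℕ) : K) = 0 := Nat.cast_card_eq_zero K
      rw [hK] at h4
      push_cast at h4
      obtain ⟨p, n, hp, hn, e⟩ := hq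
      have hp' := hp.nat_prime
      have h5 : r = p := by
        have h6 : r ∣ p ^ n := by rw [e]; exact dvd_mul_right _ _
        exact (Nat.prime_dvd_prime_iff_eq hr hp').1 (hr.dvd_of_dvd_pow h6)
      subst h5
      have h6 : (((r * k : ℕ) : ℕ) : K) = 0 := by
        push_cast
        exact pow_eq_zero_iff (three_ne_zero) |>.1 h4
      rw [← e] at h6
      push_cast at h6
      exact pow_eq_zero_iff (by omega) |>.1 h6
    have h4 : r ^ m ≤ q ^ 16 := by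
      apply card_le (by omega) hr hrq
      rw [← hm, ← hcardT]
      exact Subgroup.card_subgroup_dvd_card R
    rw [hm] at h3
    have h5 := numer hodd hq3 (r := r) (by
      have := hr.two_le
      omega) (by
      rintro rfl
      have h6 := hr.two_le
      by_contra h7
      have h8 : r = 3 ∨ r = 4 := by omega
      rcases h8 with rfl | rfl
      · exact hrq dvd_rfl
      · exact absurd hr (by norm_num))
    omega

end Cfsg.Agent.H751.TD4RkOne
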