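import Cfsg.Agent.H751.IF.TD4RkOne
import Cfsg.Agent.H446.IF.Cross

/-!
# S5719: `³D₄(q)`, `q` odd, the case of 2-rank one, closed form (helper751)
-/

set_option autoImplicit false

namespace Cfsg.Agent.H751.TD4RkOne

open Cfsg.Lie Cfsg.Agent.SplitTwo Cfsg.Agent.Cit.HexBase
open Subgroup Cfsg.Agent.H209.Fxy

theorem cross' : Cross := by
  intro r hr F _ _ hodd h3 hrF G _ _ φ R hR hn hne
  exact Cfsg.Agent.H446.IFX.cross hr hodd h3 hrF φ hR hn hne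

/-- **2-rank one.** -/
theorem rkOne {K : Type} [Field K] [Fintype K] {q : ℕ} (hq : IsPrimePow q) (hodd : Odd q)
    (hK : Fintype.card K = q ^ 3) (hs : IsSimpleGroup ↥(twistedD4 K q)) {A : Subgroup ↥(twistedD4 K q)}
    {Γ : Subgroup (MulAut ↥(twistedD4 K q))} (h : IF A Γ) {σ : K ≃+* K}
    (c : HexGrp σ ↥(twistedD4 K q))
    (hk : ∀ g : ↥(twistedD4 K q), g * c.z * g⁻¹ ∈ A → ∀ x, g * c.pb x * g⁻¹ ∈ A)
    (h1 : ∀ s ∈ A, ∀ t ∈ A, orderOf s = 2 → orderOf t = 2 → s * t = t * s → s = t)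
    (hev : ∃ t ∈ A, orderOf t = 2) : False :=
  rkOne' cross' hq hodd hK hs h c hk h1 hev

end Cfsg.Agent.H751.TD4RkOne
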